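import Cfsg.Agent.Depth.N.Main_m3
import Cfsg.Agent.Prune
set_option linter.all false
prune_inst 0x7f00000000000000000000000000000000000000000000000000000000000000000000000000000000000000000000000000000000000000000000000000000000000000000000000000000000000000003fffffffffffffffffffffffffffbeffbdffffffff

/-! Depth L: the runs of the window 0 in the class 47 (generated). -/

set_option autoImplicit false
set_option Elab.async false

namespace Cfsg.Agent.Depth.L

/-! A run is cut into stages; `V`, `W`, `X` are the numbers that pass from stage to stage. -/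

private def cR (S : ℕ) (P : Par) : ℕ := lanesG S P.lo (Nat.succ P.N)
private def cOn (P : Par) : ℕ := onH (Nat.succ P.N)
private def cH1 (P : Par) : ℕ := Nat.div P.N 2
private def cOh (P : Par) : ℕ := onH (Nat.succ (cH1 P))
private def cBe (S : ℕ) (P : Par) : ℕ := Nat.land (cOh P) (cR S P)
private def cBo (S : ℕ) (P : Par) : ℕ := Nat.land (cOh P) (Nat.shiftRight (cR S P) 28)
private def cGe (S : ℕ) (P : Par) : ℕ := gH (cOh P) (ogH (cOh P) (cH1 P) P.κ) (cBe S P) P.K (Nat.succ (cH1 P)) (P.ev 0)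
private def cGo (S : ℕ) (P : Par) : ℕ := Nat.shiftLeft (gH (cOh P) (ogH (cOh P) (cH1 P) P.κ) (cBo S P) P.K (Nat.succ (cH1 P)) (P.ev 1)) 28
private def valV (S : ℕ) (P : Par) : ℕ := Nat.add (Nat.add (cGe S P) (cGo S P)) (Nat.mul 4398046527488 (cOh P))
private def lowH (on V : ℕ) : ℕ := Nat.land (Nat.mul 268435455 on) V
private def vE (P : Par) (V : ℕ) : ℕ := Nat.sub (lowH (cOh P) V) (Nat.shiftLeft (cOh P) 14)
private def vS (P : Par) (V : ℕ) : ℕ := Nat.sub V (Nat.mul 4398046527488 (cOh P))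
private def chkA (S : ℕ) (P : Par) (V : ℕ) : Bool :=
  and (gHOK (cOh P) (ogH (cOh P) (cH1 P) P.κ) (cBe S P) P.K (Nat.succ (cH1 P)) (P.ev 0))
    (and (gHOK (cOh P) (ogH (cOh P) (cH1 P) P.κ) (cBo S P) P.K (Nat.succ (cH1 P)) (P.ev 1))
      (and (Nat.beq (cGe S P) (vE P V)) (Nat.beq (Nat.add (cGe S P) (cGo S P)) (vS P V))))
private def chkL (S : ℕ) (P : Par) (h : ℕ × ℕ × ℕ) : Bool :=
  lamQ (cOh P) (Nat.shiftRight (Nat.succ P.N) 5) (Nat.div (Nat.succ (cH1 P)) 2) h.2.1 P.b2 (cBe S P) (cBo S P)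
    (lamH (cBe S P) (Nat.succ (cH1 P)) (P.ev 0)) (lamH (cBo S P) (Nat.succ (cH1 P)) (P.ev 1))
private def cP1 (P : Par) (V : ℕ) : ℕ := Nat.pow (vS P V) 2
private def cP2 (P : Par) (V : ℕ) : ℕ := Nat.pow (dist2 (vE P V) (Nat.sub (vS P V) (vE P V))) 2
private def cO1 (P : Par) (h : ℕ × ℕ × ℕ) : ℕ := Nat.mul (Nat.shiftLeft 65537 (Nat.pred h.1)) (cOn P)
private def cS0 (P : Par) (h : ℕ × ℕ × ℕ) (V : ℕ) : ℕ := Nat.add (Nat.shiftRight (Nat.add (cP1 P V) (cP2 P V)) 1) (cO1 P h)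
private def cS1 (P : Par) (h : ℕ × ℕ × ℕ) (V : ℕ) : ℕ := Nat.add (Nat.shiftRight (Nat.sub (cP1 P V) (cP2 P V)) 29) (cO1 P h)
private def cT0 (P : Par) (h : ℕ × ℕ × ℕ) (V : ℕ) : ℕ := mv (md (cOn P) 65535 h.1 (cS0 P h V)) h.1 0
private def cT1 (P : Par) (h : ℕ × ℕ × ℕ) (V : ℕ) : ℕ := mv (md (cOn P) 65535 h.1 (cS1 P h V)) h.1 28
private def valW (P : Par) (h : ℕ × ℕ × ℕ) (V : ℕ) : ℕ := Nat.add (cT0 P h V) (cT1 P h V)
private def chkB (P : Par) (h : ℕ × ℕ × ℕ) (V W : ℕ) : Bool :=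
  and (hiOK (cOn P) (Nat.add h.1 16) (cS0 P h V)) (and (hiOK (cOn P) (Nat.add h.1 16) (cS1 P h V))
    (and (Nat.beq (cT0 P h V) (lowH (cOn P) W)) (Nat.beq (cT1 P h V) (Nat.sub W (lowH (cOn P) W)))))
private def cQ1 (P : Par) (W : ℕ) : ℕ := Nat.pow (dist2 W (Nat.mul 8796093054976 (cOn P))) 2
private def cQ2 (P : Par) (W : ℕ) : ℕ :=
  Nat.pow (dist2 (Nat.add (lowH (cOn P) W) (Nat.mul 8796092989440 (cOn P))) (Nat.sub W (lowH (cOn P) W))) 2
private def cO2 (P : Par) (h : ℕ × ℕ × ℕ) : ℕ := Nat.shiftLeft (cOn P) (Nat.add h.2.2 9)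
private def cU0 (P : Par) (h : ℕ × ℕ × ℕ) (W : ℕ) : ℕ := Nat.add (Nat.add (cQ1 P W) (cQ2 P W)) (cO2 P h)
private def cU2 (P : Par) (h : ℕ × ℕ × ℕ) (W : ℕ) : ℕ := Nat.add (Nat.shiftRight (dist2 (cQ1 P W) (cQ2 P W)) 28) (cO2 P h)
private def cUp (P : Par) (h : ℕ × ℕ × ℕ) (U : ℕ) : ℕ := Nat.add (Nat.shiftRight U (Nat.mul 56 (Nat.succ P.N))) (cO2 P h)
private def cX (P : Par) (h : ℕ × ℕ × ℕ) (U b : ℕ) : ℕ :=
  Nat.add (mv (md (cOn P) 1023 h.2.2 U) h.2.2 b) (mv (md (cOn P) 1023 h.2.2 (cUp P h U)) h.2.2 (Nat.add b 14))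
private def valX (P : Par) (h : ℕ × ℕ × ℕ) (W : ℕ) : ℕ := Nat.add (cX P h (cU0 P h W) 0) (cX P h (cU2 P h W) 28)
private def chkC (P : Par) (h : ℕ × ℕ × ℕ) (U b Y : ℕ) : Bool :=
  and (hiOK (cOn P) (Nat.add h.2.2 10) U) (and (hiOK (cOn P) (Nat.add h.2.2 10) (cUp P h U)) (Nat.beq (cX P h U b) Y))
private def chkC0 (P : Par) (h : ℕ × ℕ × ℕ) (W X : ℕ) : Bool := chkC P h (cU0 P h W) 0 (lowH (cOn P) X)
private def chkC1 (P : Par) (h : ℕ × ℕ × ℕ) (W X : ℕ) : Bool := chkC P h (cU2 P h W) 28 (Nat.sub X (lowH (cOn P) X))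
private def fD (w : ℕ) : ℕ → ℕ := blk (fun X => ts (onH w) (sqA (Nat.mul 4398314962945 (onH w)) (ab (Nat.mul 4398314962945 (onH w)) X))) (Nat.mul 56 w) 4
private def valD0 (P : Par) (X : ℕ) : ℕ := (fun w => fD w (Nat.land (Nat.pred (Nat.shiftLeft 1 (Nat.shiftLeft (Nat.mul 56 w) 4))) X)) (Nat.shiftRight (Nat.succ P.N) 5)
private def valD1 (P : Par) (X : ℕ) : ℕ := (fun w => fD w (Nat.shiftRight X (Nat.shiftLeft (Nat.mul 56 w) 4))) (Nat.shiftRight (Nat.succ P.N) 5)

private def chkD (P : Par) (h : ℕ × ℕ × ℕ) (X d : ℕ) : Bool :=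
  Nat.ble (Nat.shiftLeft (Nat.add (Nat.add d (valD1 P X)) (Nat.mul 4 (Nat.succ P.N))) (Nat.add (Nat.add h.2.2 h.2.2) 2)) P.bt

private theorem lowH_add (on V : ℕ) : Nat.add (lowH on V) (Nat.sub V (lowH on V)) = V :=
  Nat.add_sub_cancel' (show Nat.mul 268435455 on &&& V ≤ V from Nat.and_le_right)

private theorem runQ_cut {S V W X d : ℕ} {P : Par} {h : ℕ × ℕ × ℕ} (hN : Nat.beq (Nat.succ P.N) (Nat.add (Nat.succ (cH1 P)) (Nat.succ (cH1 P))) = true)
    (a : chkA S P V = true) (l : chkL S P h = true) (b : chkB P h V W = true) (c0 : chkC0 P h W X = true)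
    (c1 : chkC1 P h W X = true) (e0 : Nat.beq (valD0 P X) d = true) (e1 : chkD P h X d = true) : runQ S P h = true := by
  have an : ∀ {x y : Bool}, x = true → y = true → and x y = true := fun hx hy => Bool.and_eq_true_iff.2 ⟨hx, hy⟩
  have ae : ∀ {x y : Bool}, and x y = true → x = true ∧ y = true := fun hx => Bool.and_eq_true_iff.1 hx
  have oh : Nat.shiftRight (onH (Nat.succ P.N)) (Nat.mul 56 (Nat.succ (Nat.div P.N 2))) = cOh P := by
    rw [Nat.eq_of_beq_eq_true hN, onH_eq]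
    exact (ones_shr _ _).trans (onH_eq _).symm
  obtain ⟨a0, a⟩ := ae a
  obtain ⟨a1, a⟩ := ae a
  obtain ⟨a2, a3⟩ := ae a
  obtain ⟨b0, b⟩ := ae b
  obtain ⟨b1, b⟩ := ae b
  obtain ⟨b2, b3⟩ := ae b
  obtain ⟨c2, c0⟩ := ae c0
  obtain ⟨c3, c0⟩ := ae c0
  obtain ⟨c4, c1⟩ := ae c1
  obtain ⟨c5, c1⟩ := ae c1
  replace a2 := Nat.eq_of_beq_eq_true a2
  replace a3 := Nat.eq_of_beq_eq_true a3
  replace b2 := Nat.eq_of_beq_eq_true b2
  replace b3 := Nat.eq_of_beq_eq_true b3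
  replace c0 := Nat.eq_of_beq_eq_true c0
  replace c1 := Nat.eq_of_beq_eq_true c1
  replace e0 := Nat.eq_of_beq_eq_true e0
  have a4 : cGo S P = Nat.sub (vS P V) (vE P V) := by
    rw [← a3, ← a2]
    exact (Nat.add_sub_cancel_left _ _).symm
  have x : pk (cOn P) 1023 h.2.2 (cU0 P h W) (cUp P h (cU0 P h W)) (cU2 P h W) (cUp P h (cU2 P h W)) = X :=
    (congrArg₂ Nat.add c0 c1).trans (lowH_add _ _)
  have y : lastA (cOn P) (Nat.shiftRight (Nat.succ P.N) 5) (Nat.succ P.N) h.2.2 (cU0 P h W) (cUp P h (cU0 P h W)) (cU2 P h W)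
      (cUp P h (cU2 P h W)) = Nat.shiftLeft (Nat.add (Nat.add d (valD1 P X)) (Nat.mul 4 (Nat.succ P.N))) (Nat.add (Nat.add h.2.2 h.2.2) 2) := by
    delta lastA
    rw [x, ← e0]
    rfl
  have q2 : sq2 (cOn P) (Nat.shiftRight (Nat.succ P.N) 5) (Nat.succ P.N) P.bt h.2.2 (cQ1 P W) (cQ2 P W) (cO2 P h) = true :=
    an c2 (an c3 (an c4 (an c5 ((congrArg (fun z => Nat.ble z P.bt) y).trans e1))))
  have q1 : sq1b (cOn P) (Nat.shiftRight (Nat.succ P.N) 5) (Nat.succ P.N) P.bt h (cS0 P h V) (cS1 P h V) = true := by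
    refine an b0 (an b1 ?_)
    change sq2 _ _ _ _ _ (Nat.pow (dist2 (Nat.add (cT0 P h V) (cT1 P h V)) _) 2) (Nat.pow (dist2 (Nat.add (cT0 P h V) _) (cT1 P h V)) 2) _ = true
    rw [b2, b3, lowH_add]
    exact q2
  have q0 : sq1 (cOn P) (Nat.shiftRight (Nat.succ P.N) 5) (Nat.succ P.N) P.bt h (cGe S P) (cGo S P) = true := by
    delta sq1
    rw [a3, a4, a2]
    exact q1
  delta runQ
  beta_reduce
  rw [oh]
  exact an a0 (an a1 (an l q0))


private def n47s0aP : Par := (pA 47 0 16942672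
    ⟨0, 10408485, 51908712180838, 684535, 8192, 68405832581121, 0, 15368224007559596644591512584, 83, 1, 293⟩)

set_option maxRecDepth 100000 in
private noncomputable def n47s0aV : ℕ := beta% (fun (x : ℕ) (_ : valV S47 n47s0aP = x) => x) _ (by conv_lhs => whnf)

set_option maxRecDepth 100000 in
private noncomputable def n47s0aW : ℕ := beta% (fun (x : ℕ) (_ : valW n47s0aP ⟨24, 43, 31⟩ n47s0aV = x) => x) _ (by conv_lhs => whnf)

set_option maxRecDepth 100000 in
private noncomputable def n47s0aX : ℕ := beta% (fun (x : ℕ) (_ : valX n47s0aP ⟨24, 43, 31⟩ n47s0aW = x) => x) _ (by conv_lhs => whnf)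

set_option maxRecDepth 100000 in
private noncomputable def n47s0aD : ℕ := beta% (fun (x : ℕ) (_ : valD0 n47s0aP n47s0aX = x) => x) _ (by conv_lhs => whnf)

private theorem n47s0a1 : chkA S47 n47s0aP n47s0aV = true := by
  decide +kernel

private theorem n47s0a2 : chkL S47 n47s0aP ⟨24, 43, 31⟩ = true := by
  decide +kernel

private theorem n47s0a3 : chkB n47s0aP ⟨24, 43, 31⟩ n47s0aV n47s0aW = true := by
  decide +kernel

private theorem n47s0a4 : chkC0 n47s0aP ⟨24, 43, 31⟩ n47s0aW n47s0aX = true := by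
  decide +kernel

private theorem n47s0a5 : chkC1 n47s0aP ⟨24, 43, 31⟩ n47s0aW n47s0aX = true := by
  decide +kernel

private theorem n47s0a6 : Nat.beq (valD0 n47s0aP n47s0aX) n47s0aD = true := by
  decide +kernel

private theorem n47s0a7 : chkD n47s0aP ⟨24, 43, 31⟩ n47s0aX n47s0aD = true := by
  decide +kernel

theorem n47s0a : runQ S47 (pA 47 0 16942672
    ⟨0, 10408485, 51908712180838, 684535, 8192, 68405832581121, 0, 15368224007559596644591512584, 83, 1, 293⟩) ⟨24, 43, 31⟩ = true :=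
  runQ_cut (P := n47s0aP) (by decide +kernel) n47s0a1 n47s0a2 n47s0a3 n47s0a4 n47s0a5 n47s0a6 n47s0a7

private def n47s0bP : Par := (pB 47 0 16942672
    ⟨57821100141785, 477046, 58316437296254, 357745, 8192, 122074425720833, 0, 12436821305391987456075519492, 79, 1, 404⟩)

set_option maxRecDepth 100000 in
private noncomputable def n47s0bV : ℕ := beta% (fun (x : ℕ) (_ : valV S47 n47s0bP = x) => x) _ (by conv_lhs => whnf)

set_option maxRecDepth 100000 in
private noncomputable def n47s0bW : ℕ := beta% (fun (x : ℕ) (_ : valW n47s0bP ⟨25, 43, 31⟩ n47s0bV = x) => x) _ (by conv_lhs => whnf)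

set_option maxRecDepth 100000 in
private noncomputable def n47s0bX : ℕ := beta% (fun (x : ℕ) (_ : valX n47s0bP ⟨25, 43, 31⟩ n47s0bW = x) => x) _ (by conv_lhs => whnf)

set_option maxRecDepth 100000 in
private noncomputable def n47s0bD : ℕ := beta% (fun (x : ℕ) (_ : valD0 n47s0bP n47s0bX = x) => x) _ (by conv_lhs => whnf)

private theorem n47s0b1 : chkA S47 n47s0bP n47s0bV = true := by
  decide +kernel

private theorem n47s0b2 : chkL S47 n47s0bP ⟨25, 43, 31⟩ = true := by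
  decide +kernel

private theorem n47s0b3 : chkB n47s0bP ⟨25, 43, 31⟩ n47s0bV n47s0bW = true := by
  decide +kernel

private theorem n47s0b4 : chkC0 n47s0bP ⟨25, 43, 31⟩ n47s0bW n47s0bX = true := by
  decide +kernel

private theorem n47s0b5 : chkC1 n47s0bP ⟨25, 43, 31⟩ n47s0bW n47s0bX = true := by
  decide +kernel

private theorem n47s0b6 : Nat.beq (valD0 n47s0bP n47s0bX) n47s0bD = true := by
  decide +kernel

private theorem n47s0b7 : chkD n47s0bP ⟨25, 43, 31⟩ n47s0bX n47s0bD = true := by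
  decide +kernel

theorem n47s0b : runQ S47 (pB 47 0 16942672
    ⟨57821100141785, 477046, 58316437296254, 357745, 8192, 122074425720833, 0, 12436821305391987456075519492, 79, 1, 404⟩) ⟨25, 43, 31⟩ = true :=
  runQ_cut (P := n47s0bP) (by decide +kernel) n47s0b1 n47s0b2 n47s0b3 n47s0b4 n47s0b5 n47s0b6 n47s0b7

private def n47s0cP : Par := (pC 47 0 16942672
    ⟨61395346236915, 292521, 104226910739261, -12020456, 8192, 76626474303489, 0, 1196168449483612465919212650, 44, 1, 303⟩)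

set_option maxRecDepth 100000 in
private noncomputable def n47s0cV : ℕ := beta% (fun (x : ℕ) (_ : valV S47 n47s0cP = x) => x) _ (by conv_lhs => whnf)

set_option maxRecDepth 100000 in
private noncomputable def n47s0cW : ℕ := beta% (fun (x : ℕ) (_ : valW n47s0cP ⟨25, 44, 29⟩ n47s0cV = x) => x) _ (by conv_lhs => whnf)

set_option maxRecDepth 100000 in
private noncomputable def n47s0cX : ℕ := beta% (fun (x : ℕ) (_ : valX n47s0cP ⟨25, 44, 29⟩ n47s0cW = x) => x) _ (by conv_lhs => whnf)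

set_option maxRecDepth 100000 in
private noncomputable def n47s0cD : ℕ := beta% (fun (x : ℕ) (_ : valD0 n47s0cP n47s0cX = x) => x) _ (by conv_lhs => whnf)

private theorem n47s0c1 : chkA S47 n47s0cP n47s0cV = true := by
  decide +kernel

private theorem n47s0c2 : chkL S47 n47s0cP ⟨25, 44, 29⟩ = true := by
  decide +kernel

private theorem n47s0c3 : chkB n47s0cP ⟨25, 44, 29⟩ n47s0cV n47s0cW = true := by
  decide +kernel

private theorem n47s0c4 : chkC0 n47s0cP ⟨25, 44, 29⟩ n47s0cW n47s0cX = true := by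
  decide +kernel

private theorem n47s0c5 : chkC1 n47s0cP ⟨25, 44, 29⟩ n47s0cW n47s0cX = true := by
  decide +kernel

private theorem n47s0c6 : Nat.beq (valD0 n47s0cP n47s0cX) n47s0cD = true := by
  decide +kernel

private theorem n47s0c7 : chkD n47s0cP ⟨25, 44, 29⟩ n47s0cX n47s0cD = true := by
  decide +kernel

theorem n47s0c : runQ S47 (pC 47 0 16942672
    ⟨61395346236915, 292521, 104226910739261, -12020456, 8192, 76626474303489, 0, 1196168449483612465919212650, 44, 1, 303⟩) ⟨25, 44, 29⟩ = true :=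
  runQ_cut (P := n47s0cP) (by decide +kernel) n47s0c1 n47s0c2 n47s0c3 n47s0c4 n47s0c5 n47s0c6 n47s0c7

theorem n47s0 : ∃ lam : ℕ → ℝ, LFacts 47 0 0.001 (n8T 0 / 10 ^ 22) (n2T 0 / 10 ^ 9) lam :=
  winQ boxTab boxTabW (sf_of s47 (by decide +kernel)) n47s0a n47s0b n47s0c (by decide +kernel)
    (by delta winN; norm_num [u8, c8, Tw, Yw, nw, kk, n8T, n2T])

end Cfsg.Agent.Depth.L

private theorem dce_a28af34a0aca : _root_.True := by
  try have : _root_.True := by simp only [_root_.Cfsg.Agent.Depth.nw.eq_1]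
  try have : _root_.True := by simp only [_root_.Cfsg.Agent.Depth.n8T.eq_1]
  try have : _root_.True := by simp only [_root_.Cfsg.Agent.Depth.L.winOK.eq_1]
  try have : _root_.True := by simp only [_root_.Cfsg.Agent.Depth.kk.eq_1]
  try have : _root_.True := by simp only [_root_.Cfsg.Agent.Depth.n2T.eq_1]
  try have : _root_.True := by simp only [_root_.Cfsg.Agent.Depth.Yw.eq_1]
  exact _root_.True.intro
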