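import Cfsg.Agent.Depth.N.Main_m3
import Cfsg.Agent.Depth.L.N59s0
import Cfsg.Agent.Prune
set_option linter.all false

section
prune_inst 0x7ffffffebfbfffffffff7e3ffffbfffe33c7cfffffdffb43ffebefbfffbfb3ff3bcdffaf9de4f8ffce77e2fd38b8f853fb7eefffee6bdc7ffffdf7b45ffbee6ff5f7bd8971df9cb40eae8fff63f37f4e6f3ffdffffffffffffffffffffffffffffffefffffff

-- part: Depth/L/N59s2
section
set_option linter.all false

/-! Depth L: the runs of the window 2 in the class 59 (generated). -/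

set_option autoImplicit false
set_option Elab.async false

namespace Cfsg.Agent.Depth.L

/-! A run is cut into stages; `V`, `W`, `X` are the numbers that pass from stage to stage. -/

private def cR (S : ℕ) (P : Par) : ℕ := lanesG S P.lo (Nat.succ P.N)
private def cOn (P : Par) : ℕ := onH (Nat.succ P.N)
private def cH1 (P : Par) : ℕ := Nat.div P.N 2
private def cOh (P : Par) : ℕ := onH (Nat.succ (cH1 P))
private def cBe (S : ℕ) (P : Par) : ℕ := Nat.land (cOh P) (cR S P)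
private def cBo (S : ℕ) (P : Par) : ℕ := Nat.land (cOh P) (Nat.shiftRight (cR S P) 28)
private def cGe (S : ℕ) (P : Par) : ℕ := gH (cOh P) (ogH (cOh P) (cH1 P) P.κ) (cBe S P) P.K (Nat.succ (cH1 P)) (P.ev 0)
private def cGo (S : ℕ) (P : Par) : ℕ := Nat.shiftLeft (gH (cOh P) (ogH (cOh P) (cH1 P) P.κ) (cBo S P) P.K (Nat.succ (cH1 P)) (P.ev 1)) 28
private def valV (S : ℕ) (P : Par) : ℕ := Nat.add (Nat.add (cGe S P) (cGo S P)) (Nat.mul 4398046527488 (cOh P))
private def lowH (on V : ℕ) : ℕ := Nat.land (Nat.mul 268435455 on) V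
private def vE (P : Par) (V : ℕ) : ℕ := Nat.sub (lowH (cOh P) V) (Nat.shiftLeft (cOh P) 14)
private def vS (P : Par) (V : ℕ) : ℕ := Nat.sub V (Nat.mul 4398046527488 (cOh P))
private def chkA (S : ℕ) (P : Par) (V : ℕ) : Bool :=
  and (gHOK (cOh P) (ogH (cOh P) (cH1 P) P.κ) (cBe S P) P.K (Nat.succ (cH1 P)) (P.ev 0))
    (and (gHOK (cOh P) (ogH (cOh P) (cH1 P) P.κ) (cBo S P) P.K (Nat.succ (cH1 P)) (P.ev 1))
      (and (Nat.beq (cGe S P) (vE P V)) (Nat.beq (Nat.add (cGe S P) (cGo S P)) (vS P V))))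
private def chkL (S : ℕ) (P : Par) (h : ℕ × ℕ × ℕ) : Bool :=
  lamQ (cOh P) (Nat.shiftRight (Nat.succ P.N) 5) (Nat.div (Nat.succ (cH1 P)) 2) h.2.1 P.b2 (cBe S P) (cBo S P)
    (lamH (cBe S P) (Nat.succ (cH1 P)) (P.ev 0)) (lamH (cBo S P) (Nat.succ (cH1 P)) (P.ev 1))
private def cP1 (P : Par) (V : ℕ) : ℕ := Nat.pow (vS P V) 2
private def cP2 (P : Par) (V : ℕ) : ℕ := Nat.pow (dist2 (vE P V) (Nat.sub (vS P V) (vE P V))) 2
private def cO1 (P : Par) (h : ℕ × ℕ × ℕ) : ℕ := Nat.mul (Nat.shiftLeft 65537 (Nat.pred h.1)) (cOn P)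
private def cS0 (P : Par) (h : ℕ × ℕ × ℕ) (V : ℕ) : ℕ := Nat.add (Nat.shiftRight (Nat.add (cP1 P V) (cP2 P V)) 1) (cO1 P h)
private def cS1 (P : Par) (h : ℕ × ℕ × ℕ) (V : ℕ) : ℕ := Nat.add (Nat.shiftRight (Nat.sub (cP1 P V) (cP2 P V)) 29) (cO1 P h)
private def cT0 (P : Par) (h : ℕ × ℕ × ℕ) (V : ℕ) : ℕ := mv (md (cOn P) 65535 h.1 (cS0 P h V)) h.1 0
private def cT1 (P : Par) (h : ℕ × ℕ × ℕ) (V : ℕ) : ℕ := mv (md (cOn P) 65535 h.1 (cS1 P h V)) h.1 28
private def valW (P : Par) (h : ℕ × ℕ × ℕ) (V : ℕ) : ℕ := Nat.add (cT0 P h V) (cT1 P h V)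
private def chkB (P : Par) (h : ℕ × ℕ × ℕ) (V W : ℕ) : Bool :=
  and (hiOK (cOn P) (Nat.add h.1 16) (cS0 P h V)) (and (hiOK (cOn P) (Nat.add h.1 16) (cS1 P h V))
    (and (Nat.beq (cT0 P h V) (lowH (cOn P) W)) (Nat.beq (cT1 P h V) (Nat.sub W (lowH (cOn P) W)))))
private def cQ1 (P : Par) (W : ℕ) : ℕ := Nat.pow (dist2 W (Nat.mul 8796093054976 (cOn P))) 2
private def cQ2 (P : Par) (W : ℕ) : ℕ :=
  Nat.pow (dist2 (Nat.add (lowH (cOn P) W) (Nat.mul 8796092989440 (cOn P))) (Nat.sub W (lowH (cOn P) W))) 2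
private def cO2 (P : Par) (h : ℕ × ℕ × ℕ) : ℕ := Nat.shiftLeft (cOn P) (Nat.add h.2.2 9)
private def cU0 (P : Par) (h : ℕ × ℕ × ℕ) (W : ℕ) : ℕ := Nat.add (Nat.add (cQ1 P W) (cQ2 P W)) (cO2 P h)
private def cU2 (P : Par) (h : ℕ × ℕ × ℕ) (W : ℕ) : ℕ := Nat.add (Nat.shiftRight (dist2 (cQ1 P W) (cQ2 P W)) 28) (cO2 P h)
private def cUp (P : Par) (h : ℕ × ℕ × ℕ) (U : ℕ) : ℕ := Nat.add (Nat.shiftRight U (Nat.mul 56 (Nat.succ P.N))) (cO2 P h)
private def cX (P : Par) (h : ℕ × ℕ × ℕ) (U b : ℕ) : ℕ :=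
  Nat.add (mv (md (cOn P) 1023 h.2.2 U) h.2.2 b) (mv (md (cOn P) 1023 h.2.2 (cUp P h U)) h.2.2 (Nat.add b 14))
private def valX (P : Par) (h : ℕ × ℕ × ℕ) (W : ℕ) : ℕ := Nat.add (cX P h (cU0 P h W) 0) (cX P h (cU2 P h W) 28)
private def chkC (P : Par) (h : ℕ × ℕ × ℕ) (U b Y : ℕ) : Bool :=
  and (hiOK (cOn P) (Nat.add h.2.2 10) U) (and (hiOK (cOn P) (Nat.add h.2.2 10) (cUp P h U)) (Nat.beq (cX P h U b) Y))
private def chkC0 (P : Par) (h : ℕ × ℕ × ℕ) (W X : ℕ) : Bool := chkC P h (cU0 P h W) 0 (lowH (cOn P) X)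
private def chkC1 (P : Par) (h : ℕ × ℕ × ℕ) (W X : ℕ) : Bool := chkC P h (cU2 P h W) 28 (Nat.sub X (lowH (cOn P) X))
private def fD (w : ℕ) : ℕ → ℕ := blk (fun X => ts (onH w) (sqA (Nat.mul 4398314962945 (onH w)) (ab (Nat.mul 4398314962945 (onH w)) X))) (Nat.mul 56 w) 4
private def valD0 (P : Par) (X : ℕ) : ℕ := (fun w => fD w (Nat.land (Nat.pred (Nat.shiftLeft 1 (Nat.shiftLeft (Nat.mul 56 w) 4))) X)) (Nat.shiftRight (Nat.succ P.N) 5)
private def valD1 (P : Par) (X : ℕ) : ℕ := (fun w => fD w (Nat.shiftRight X (Nat.shiftLeft (Nat.mul 56 w) 4))) (Nat.shiftRight (Nat.succ P.N) 5)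

private def chkD (P : Par) (h : ℕ × ℕ × ℕ) (X d : ℕ) : Bool :=
  Nat.ble (Nat.shiftLeft (Nat.add (Nat.add d (valD1 P X)) (Nat.mul 4 (Nat.succ P.N))) (Nat.add (Nat.add h.2.2 h.2.2) 2)) P.bt

private theorem lowH_add (on V : ℕ) : Nat.add (lowH on V) (Nat.sub V (lowH on V)) = V :=
  Nat.add_sub_cancel' (show Nat.mul 268435455 on &&& V ≤ V from Nat.and_le_right)

private theorem runQ_cut {S V W X d : ℕ} {P : Par} {h : ℕ × ℕ × ℕ} (hN : Nat.beq (Nat.succ P.N) (Nat.add (Nat.succ (cH1 P)) (Nat.succ (cH1 P))) = true)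
    (a : chkA S P V = true) (l : chkL S P h = true) (b : chkB P h V W = true) (c0 : chkC0 P h W X = true)
    (c1 : chkC1 P h W X = true) (e0 : Nat.beq (valD0 P X) d = true) (e1 : chkD P h X d = true) : runQ S P h = true := by
  have an : ∀ {x y : Bool}, x = true → y = true → and x y = true := fun hx hy => Bool.and_eq_true_iff.2 ⟨hx, hy⟩
  have ae : ∀ {x y : Bool}, and x y = true → x = true ∧ y = true := fun hx => Bool.and_eq_true_iff.1 hx
  have oh : Nat.shiftRight (onH (Nat.succ P.N)) (Nat.mul 56 (Nat.succ (Nat.div P.N 2))) = cOh P := by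
    rw [Nat.eq_of_beq_eq_true hN, onH_eq]
    exact (ones_shr _ _).trans (onH_eq _).symm
  obtain ⟨a0, a⟩ := ae a
  obtain ⟨a1, a⟩ := ae a
  obtain ⟨a2, a3⟩ := ae a
  obtain ⟨b0, b⟩ := ae b
  obtain ⟨b1, b⟩ := ae b
  obtain ⟨b2, b3⟩ := ae b
  obtain ⟨c2, c0⟩ := ae c0
  obtain ⟨c3, c0⟩ := ae c0
  obtain ⟨c4, c1⟩ := ae c1
  obtain ⟨c5, c1⟩ := ae c1
  replace a2 := Nat.eq_of_beq_eq_true a2
  replace a3 := Nat.eq_of_beq_eq_true a3
  replace b2 := Nat.eq_of_beq_eq_true b2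
  replace b3 := Nat.eq_of_beq_eq_true b3
  replace c0 := Nat.eq_of_beq_eq_true c0
  replace c1 := Nat.eq_of_beq_eq_true c1
  replace e0 := Nat.eq_of_beq_eq_true e0
  have a4 : cGo S P = Nat.sub (vS P V) (vE P V) := by
    rw [← a3, ← a2]
    exact (Nat.add_sub_cancel_left _ _).symm
  have x : pk (cOn P) 1023 h.2.2 (cU0 P h W) (cUp P h (cU0 P h W)) (cU2 P h W) (cUp P h (cU2 P h W)) = X :=
    (congrArg₂ Nat.add c0 c1).trans (lowH_add _ _)
  have y : lastA (cOn P) (Nat.shiftRight (Nat.succ P.N) 5) (Nat.succ P.N) h.2.2 (cU0 P h W) (cUp P h (cU0 P h W)) (cU2 P h W)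
      (cUp P h (cU2 P h W)) = Nat.shiftLeft (Nat.add (Nat.add d (valD1 P X)) (Nat.mul 4 (Nat.succ P.N))) (Nat.add (Nat.add h.2.2 h.2.2) 2) := by
    delta lastA
    rw [x, ← e0]
    rfl
  have q2 : sq2 (cOn P) (Nat.shiftRight (Nat.succ P.N) 5) (Nat.succ P.N) P.bt h.2.2 (cQ1 P W) (cQ2 P W) (cO2 P h) = true :=
    an c2 (an c3 (an c4 (an c5 ((congrArg (fun z => Nat.ble z P.bt) y).trans e1))))
  have q1 : sq1b (cOn P) (Nat.shiftRight (Nat.succ P.N) 5) (Nat.succ P.N) P.bt h (cS0 P h V) (cS1 P h V) = true := by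
    refine an b0 (an b1 ?_)
    change sq2 _ _ _ _ _ (Nat.pow (dist2 (Nat.add (cT0 P h V) (cT1 P h V)) _) 2) (Nat.pow (dist2 (Nat.add (cT0 P h V) _) (cT1 P h V)) 2) _ = true
    rw [b2, b3, lowH_add]
    exact q2
  have q0 : sq1 (cOn P) (Nat.shiftRight (Nat.succ P.N) 5) (Nat.succ P.N) P.bt h (cGe S P) (cGo S P) = true := by
    delta sq1
    rw [a3, a4, a2]
    exact q1
  delta runQ
  beta_reduce
  rw [oh]
  exact an a0 (an a1 (an l q0))


private def n59s2aP : Par := (pA 59 2 20164166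
    ⟨0, 12164259, 50953358890423, 807491, 8192, 56262657245185, 0, 6292298984497017723117146996, 76, 1, 298⟩)

set_option maxRecDepth 100000 in
private noncomputable def n59s2aV : ℕ := beta% (fun (x : ℕ) (_ : valV S59 n59s2aP = x) => x) _ (by conv_lhs => whnf)

set_option maxRecDepth 100000 in
private noncomputable def n59s2aW : ℕ := beta% (fun (x : ℕ) (_ : valW n59s2aP ⟨24, 43, 31⟩ n59s2aV = x) => x) _ (by conv_lhs => whnf)

set_option maxRecDepth 100000 in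
private noncomputable def n59s2aX : ℕ := beta% (fun (x : ℕ) (_ : valX n59s2aP ⟨24, 43, 31⟩ n59s2aW = x) => x) _ (by conv_lhs => whnf)

set_option maxRecDepth 100000 in
private noncomputable def n59s2aD : ℕ := beta% (fun (x : ℕ) (_ : valD0 n59s2aP n59s2aX = x) => x) _ (by conv_lhs => whnf)

private theorem n59s2a1 : chkA S59 n59s2aP n59s2aV = true := by
  decide +kernel

private theorem n59s2a2 : chkL S59 n59s2aP ⟨24, 43, 31⟩ = true := by
  decide +kernel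

private theorem n59s2a3 : chkB n59s2aP ⟨24, 43, 31⟩ n59s2aV n59s2aW = true := by
  decide +kernel

private theorem n59s2a4 : chkC0 n59s2aP ⟨24, 43, 31⟩ n59s2aW n59s2aX = true := by
  decide +kernel

private theorem n59s2a5 : chkC1 n59s2aP ⟨24, 43, 31⟩ n59s2aW n59s2aX = true := by
  decide +kernel

private theorem n59s2a6 : Nat.beq (valD0 n59s2aP n59s2aX) n59s2aD = true := by
  decide +kernel

private theorem n59s2a7 : chkD n59s2aP ⟨24, 43, 31⟩ n59s2aX n59s2aD = true := by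
  decide +kernel

theorem n59s2a : runQ S59 (pA 59 2 20164166
    ⟨0, 12164259, 50953358890423, 807491, 8192, 56262657245185, 0, 6292298984497017723117146996, 76, 1, 298⟩) ⟨24, 43, 31⟩ = true :=
  runQ_cut (P := n59s2aP) (by decide +kernel) n59s2a1 n59s2a2 n59s2a3 n59s2a4 n59s2a5 n59s2a6 n59s2a7

private def n59s2bP : Par := (pB 59 2 20164166
    ⟨56813491517144, 562830, 57304343457764, 422131, 8192, 100710402883585, 0, 4234024648969585590563101474, 69, 1, 400⟩)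

set_option maxRecDepth 100000 in
private noncomputable def n59s2bV : ℕ := beta% (fun (x : ℕ) (_ : valV S59 n59s2bP = x) => x) _ (by conv_lhs => whnf)

set_option maxRecDepth 100000 in
private noncomputable def n59s2bW : ℕ := beta% (fun (x : ℕ) (_ : valW n59s2bP ⟨25, 43, 30⟩ n59s2bV = x) => x) _ (by conv_lhs => whnf)

set_option maxRecDepth 100000 in
private noncomputable def n59s2bX : ℕ := beta% (fun (x : ℕ) (_ : valX n59s2bP ⟨25, 43, 30⟩ n59s2bW = x) => x) _ (by conv_lhs => whnf)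

set_option maxRecDepth 100000 in
private noncomputable def n59s2bD : ℕ := beta% (fun (x : ℕ) (_ : valD0 n59s2bP n59s2bX = x) => x) _ (by conv_lhs => whnf)

private theorem n59s2b1 : chkA S59 n59s2bP n59s2bV = true := by
  decide +kernel

private theorem n59s2b2 : chkL S59 n59s2bP ⟨25, 43, 30⟩ = true := by
  decide +kernel

private theorem n59s2b3 : chkB n59s2bP ⟨25, 43, 30⟩ n59s2bV n59s2bW = true := by
  decide +kernel

private theorem n59s2b4 : chkC0 n59s2bP ⟨25, 43, 30⟩ n59s2bW n59s2bX = true := by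
  decide +kernel

private theorem n59s2b5 : chkC1 n59s2bP ⟨25, 43, 30⟩ n59s2bW n59s2bX = true := by
  decide +kernel

private theorem n59s2b6 : Nat.beq (valD0 n59s2bP n59s2bX) n59s2bD = true := by
  decide +kernel

private theorem n59s2b7 : chkD n59s2bP ⟨25, 43, 30⟩ n59s2bX n59s2bD = true := by
  decide +kernel

theorem n59s2b : runQ S59 (pB 59 2 20164166
    ⟨56813491517144, 562830, 57304343457764, 422131, 8192, 100710402883585, 0, 4234024648969585590563101474, 69, 1, 400⟩) ⟨25, 43, 30⟩ = true :=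
  runQ_cut (P := n59s2bP) (by decide +kernel) n59s2b1 n59s2b2 n59s2b3 n59s2b4 n59s2b5 n59s2b6 n59s2b7

private def n59s2cP : Par := (pC 59 2 20164166
    ⟨60356960066055, 345197, 102480180781754, -14066032, 8192, 63104521273345, 0, 7071214716176471468531213402, 78, 1, 302⟩)

set_option maxRecDepth 100000 in
private noncomputable def n59s2cV : ℕ := beta% (fun (x : ℕ) (_ : valV S59 n59s2cP = x) => x) _ (by conv_lhs => whnf)

set_option maxRecDepth 100000 in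
private noncomputable def n59s2cW : ℕ := beta% (fun (x : ℕ) (_ : valW n59s2cP ⟨24, 43, 30⟩ n59s2cV = x) => x) _ (by conv_lhs => whnf)

set_option maxRecDepth 100000 in
private noncomputable def n59s2cX : ℕ := beta% (fun (x : ℕ) (_ : valX n59s2cP ⟨24, 43, 30⟩ n59s2cW = x) => x) _ (by conv_lhs => whnf)

set_option maxRecDepth 100000 in
private noncomputable def n59s2cD : ℕ := beta% (fun (x : ℕ) (_ : valD0 n59s2cP n59s2cX = x) => x) _ (by conv_lhs => whnf)

private theorem n59s2c1 : chkA S59 n59s2cP n59s2cV = true := by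
  decide +kernel

private theorem n59s2c2 : chkL S59 n59s2cP ⟨24, 43, 30⟩ = true := by
  decide +kernel

private theorem n59s2c3 : chkB n59s2cP ⟨24, 43, 30⟩ n59s2cV n59s2cW = true := by
  decide +kernel

private theorem n59s2c4 : chkC0 n59s2cP ⟨24, 43, 30⟩ n59s2cW n59s2cX = true := by
  decide +kernel

private theorem n59s2c5 : chkC1 n59s2cP ⟨24, 43, 30⟩ n59s2cW n59s2cX = true := by
  decide +kernel

private theorem n59s2c6 : Nat.beq (valD0 n59s2cP n59s2cX) n59s2cD = true := by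
  decide +kernel

private theorem n59s2c7 : chkD n59s2cP ⟨24, 43, 30⟩ n59s2cX n59s2cD = true := by
  decide +kernel

theorem n59s2c : runQ S59 (pC 59 2 20164166
    ⟨60356960066055, 345197, 102480180781754, -14066032, 8192, 63104521273345, 0, 7071214716176471468531213402, 78, 1, 302⟩) ⟨24, 43, 30⟩ = true :=
  runQ_cut (P := n59s2cP) (by decide +kernel) n59s2c1 n59s2c2 n59s2c3 n59s2c4 n59s2c5 n59s2c6 n59s2c7

theorem n59s2 : ∃ lam : ℕ → ℝ, LFacts 59 2 0.001 (n8T 2 / 10 ^ 22) (n2T 2 / 10 ^ 9) lam :=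
  winQ boxTab boxTabW (sf_of s59 (by decide +kernel)) n59s2a n59s2b n59s2c (by decide +kernel)
    (by delta winN; norm_num [u8, c8, Tw, Yw, nw, kk, n8T, n2T])

end Cfsg.Agent.Depth.L
end

-- part: Depth/K/Big
section
set_option linter.all false
open scoped Cfsg.Agent.FastGrp

/-!
# Depth (S5768): the analytic theorem from the boxes (helper15)
-/

set_option autoImplicit false

namespace Cfsg.Agent.Depth.K

open Finset Cfsg.Agent.Depth.S Cfsg.Agent.Depth.D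
open scoped Classical

theorem Ew_le {s : ℕ} (hs : s < 8) : Ew s ≤ 27515904 ∧ Ew s * rw (s + 1) ≤ 30013501440 := by
  interval_cases s <;> decide

theorem y_le {N N' s j i : ℕ} (hN : 10 ^ 23 ≤ N) (h : N ≤ 60 * N' + 240) (hs : s < 8) (hj : InW N s j)
    (hi : i < Ew s) : (i + 2) * (60 * j + 2) ≤ N' := by
  have h1 := BB_ge hN
  have h2 := (inW_bounds hj).2
  have h3 : (N : ℝ) ≤ 60 * N' + 240 := by exact_mod_cast h
  have h4 : (i : ℝ) + 2 ≤ 27515906 := by exact_mod_cast (by have := (Ew_le hs).1; omega : i + 2 ≤ 27515906)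
  have h5 : ((i : ℝ) + 2) * (60 * j + 2) ≤ 27515906 * (2 * BB N + 1) :=
    mul_le_mul h4 (by linarith only [h2]) (by positivity) (by norm_num)
  rw [N_eq] at h3
  have h6 : ((i : ℝ) + 2) * (60 * j + 2) ≤ N' := by linarith only [h1, h3, h5]
  exact_mod_cast h6

theorem three_lt {N c1 s j i : ℕ} (hN : 10 ^ 23 ≤ N) (hc : c1 < 60) (hs : s < 8) (hj : InW N s j) (hi : i < Ew s) :
    3 * ((60 * i + c1) * (60 * j + 1 + 1)) < N := by
  have h1 := BB_ge hN
  have h2 := hj.2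
  have h3 : (60 * i + c1 : ℝ) ≤ 60 * Ew s := by exact_mod_cast (by omega : 60 * i + c1 ≤ 60 * Ew s)
  have h4 : (Ew s : ℝ) ≤ 27515904 := by exact_mod_cast (Ew_le hs).1
  have h5 : (Ew s : ℝ) * rw (s + 1) ≤ 30013501440 := by exact_mod_cast (Ew_le hs).2
  have h6 := mul_le_mul_of_nonneg_right h3 (show (0 : ℝ) ≤ 60 * j + 1 + 1 by positivity)
  have h7 := mul_le_mul_of_nonneg_left h2 (show (0 : ℝ) ≤ Ew s by positivity)
  have h8 := mul_le_mul_of_nonneg_right h5 (BB_nonneg N)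
  have h9 : (3 : ℝ) * ((60 * i + c1) * (60 * j + 1 + 1)) < N := by
    have h10 := N_eq N
    linarith only [h1, h4, h6, h7, h8, h10]
  exact_mod_cast h9

theorem RR_sq (N : ℕ) : 192 * (RR N * RR N) ≤ N := by
  have := Nat.sqrt_le (N / 192)
  unfold RR
  omega

theorem two_le_RR {N : ℕ} (h : 10 ^ 23 ≤ N) : 2 ≤ RR N := Nat.le_sqrt.2 (by omega)

theorem aw_ne {c u : ℕ} {w : ℕ → ℝ} (h : aw c w u ≠ 0) : (60 * u + c).Prime ∧ w u ≠ 0 := by
  unfold aw at h
  split_ifs at h with e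
  · exact ⟨e, left_ne_zero_of_mul h⟩
  · exact absurd rfl h

theorem nu_small (hNu : BoxNu) {N c1 : ℕ} (hN : 10 ^ 23 ≤ N) (hc : c1 < 60) (hT : 0 < Th N) (x : ℝ)
    (h : 1 ≤ 2 * (RR N : ℝ) * nd x) : ‖nuH N c1 x‖ / Th N ≤ 38 / Real.sqrt N := by
  have h1 := (hNu N c1 hN hc).1 x
  have h2 := two_nd_le_sin x
  have h3 := BB_pos hN
  have h4 : (0 : ℝ) < N := by exact_mod_cast (by omega : 0 < N)
  have h5 := Real.sqrt_pos.2 h4
  have h6 := Real.mul_self_sqrt h4.le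
  have h7 : (192 : ℝ) * (RR N * RR N) ≤ N := by exact_mod_cast RR_sq N
  have h8 : (0 : ℝ) ≤ RR N := Nat.cast_nonneg _
  have h9 : 13.85 * (RR N : ℝ) ≤ Real.sqrt N := by
    refine Real.le_sqrt_of_sq_le ?_
    linarith only [h4, h7]
  have h10 : 1 ≤ RR N * |Real.sin (Real.pi * x)| := by nlinarith only [h, h2]
  have h11 := N_eq N
  rw [div_le_div_iff₀ hT h5]
  have h12 : Real.sqrt N ≤ 38 * (11304960 * BB N * |Real.sin (Real.pi * x)|) := by
    refine le_of_mul_le_mul_left ?_ h5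
    have h13 := mul_le_mul_of_nonneg_right h9 (abs_nonneg (Real.sin (Real.pi * x)))
    have h14 : 13.85 ≤ Real.sqrt N * |Real.sin (Real.pi * x)| := by linarith only [h10, h13]
    have h15 := mul_le_mul_of_nonneg_left h14 h3.le
    linarith only [h3, h6, h11, h15]
  nlinarith only [hT, h1, h5, h12]

theorem Dact_nonneg (N c1 : ℕ) (lam : ℕ → ℕ → ℝ) (η : ℝ) (q : ℕ) (β : ℝ) : 0 ≤ Dact N c1 lam η q β :=
  (le_fold_max _).2 (Or.inl le_rfl)

theorem le_Dact (N c1 : ℕ) (lam : ℕ → ℕ → ℝ) (η : ℝ) {q b : ℕ} (β : ℝ) (h1 : b < q) (h2 : b.Coprime q) :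
    ‖phiH N c1 lam (b / q + β) - nuH N c1 (b / q + β)‖ / Th N - η ≤ Dact N c1 lam η q β :=
  (le_fold_max _).2 (Or.inr ⟨b, by simpa using ⟨h1, h2⟩, le_rfl⟩)

theorem amgm (x y : ℝ) : x * y ≤ (x ^ 2 + y ^ 2) / 2 := by linarith only [sq_nonneg (x - y)]

/-- some term of the representation sum does not vanish -/
theorem exists_term (hNu : BoxNu) (hR : BoxR) (hNum : BoxNum) {N N' c1 c3 c4 : ℕ} {lam : ℕ → ℕ → ℝ} {w : ℕ → ℝ}
    {U : ℝ} (hN : 10 ^ 24 ≤ N) (hNN : N = 60 * N' + 2 * c1 + c3 + c4 + 2) (hc1 : c1 = 59 ∨ c1 = 47) (hc3 : c3 < 60)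
    (hc4 : c4 < 60) (hL : LAll c1 lam) (hM : MFacts N N' c1 c3 c4 w U) :
    ¬ ∀ s, s < 8 → ∀ j ∈ JW N s, ∀ i, i < Ew s →
      lam s i = 0 ∨ AA N' (aw c3 w) (aw c4 w) (i * (60 * j + 2) + c1 * j) = 0 := by
  intro hz
  have hN' : 10 ^ 23 ≤ N := by omega
  have hc1' : c1 < 60 := by omega
  have hNle : N ≤ 60 * N' + 240 := by omega
  obtain ⟨hTh, η, κ, γ, η1, η2, hκ, γ0, γ1, hoff, harc, hfin⟩ := hNum N c1 lam hN hc1 hL
  obtain ⟨U0, w0, wsup, hmain, e3, e4⟩ := id hM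
  have hT : 0 < Th N := by linarith only [hTh, BB_pos hN']
  have hR2 := two_le_RR hN'
  have hM1 : 2 ≤ (RR N).factorial := hR2.trans (Nat.self_le_factorial _)
  have hRb := hR N N' c1 c3 c4 (RR N).factorial lam w U η
  have hd : ∀ q : ℕ, 1 ≤ q → q ≤ RR N → q ∣ (N' + 1) * (RR N).factorial := fun q h1 h2 =>
    (Nat.dvd_factorial h1 h2).mul_left _
  have hM2 : 2 * N' < (N' + 1) * (RR N).factorial := by nlinarith only [hM1]
  have hM3 : N' + 1 ≤ (N' + 1) * (RR N).factorial := Nat.le_mul_of_pos_right _ (by omega)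
  generalize (N' + 1) * (RR N).factorial = M at hRb hd hM2 hM3
  have hM0 : 0 < M := by omega
  have hMR : (0 : ℝ) < M := by exact_mod_cast hM0
  have hsup : ∀ c u, N' + 1 ≤ u → aw c w u = 0 := fun c u hu => by
    by_contra e
    have := wsup u (aw_ne e).2
    omega
  have hsift : ∀ c u, aw c w u ≠ 0 → Sifted 60 c 60 (RR N) u := fun c u e p hp hpR _ hdv => by
    have h1 := (Nat.prime_dvd_prime_iff_eq hp (aw_ne e).1).1 hdv
    have h2 : p ≤ RR N := by exact_mod_cast hpR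
    have h3 := wsup u (aw_ne e).2
    have h4 := RR_sq N
    have h5 : 60 * u * (60 * u) ≤ RR N * RR N := Nat.mul_le_mul (by omega) (by omega)
    have h6 : 60 * u * (60 * 1) ≤ 60 * u * (60 * u) := Nat.mul_le_mul_left _ (by omega)
    omega
  have e3' : ∑ u ∈ range M, aw c3 w u ^ 2 ≤ (0.2736 * Real.log N - 0.24) * U := by
    rwa [sum_trunc hM3 _ fun u hu => by rw [hsup c3 u hu, zero_pow two_ne_zero]]
  have e4' : ∑ u ∈ range M, aw c4 w u ^ 2 ≤ (0.2736 * Real.log N - 0.24) * U := by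
    rwa [sum_trunc hM3 _ fun u hu => by rw [hsup c4 u hu, zero_pow two_ne_zero]]
  -- the weight
  let sg : ℝ → ℝ := fun x => ‖SS M (aw c3 w) x‖ * ‖SS M (aw c4 w) x‖
  have sg0 : ∀ x, 0 ≤ sg x := fun x => mul_nonneg (norm_nonneg _) (norm_nonneg _)
  have sgp : ∀ x (n : ℤ), sg (x + n) = sg x := fun x n => by simp only [sg, LPa.SS_add_int]
  let G : ℕ → ℂ := fun k => SS (N' + 1) (aw c3 w) (k / M) * SS (N' + 1) (aw c4 w) (k / M) * ex (-((k : ℝ) / M * N'))
  have hG : ∀ k : ℕ, ‖G k‖ = sg (k / M) := fun k => by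
    simp only [G, sg, norm_mul, norm_ex, mul_one, SS_trunc hM3 (hsup _)]
  have hsg : ∑ k ∈ range M, sg (k / M) ≤ M * ((0.2736 * Real.log N - 0.24) * U) := by
    have h1 := parseval hM0 (aw c3 w) 0
    have h2 := parseval hM0 (aw c4 w) 0
    simp only [zero_add] at h1 h2
    refine (sum_le_sum fun k _ => amgm _ _).trans ?_
    rw [← sum_div, sum_add_distrib, h1, h2]
    nlinarith only [e3', e4']
  -- the two dual sums
  have hphi : ∑ k ∈ range M, phiH N c1 lam (k / M) * G k = 0 := by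
    rw [phi_dual]
    refine sum_eq_zero fun s hs => sum_eq_zero fun j hj => mul_eq_zero_of_right _ (sum_eq_zero fun i hi => ?_)
    have h1 := y_le hN' hNle (mem_range.1 hs) (mem_JW.1 hj).2.1 (mem_range.1 hi)
    rw [ortho3 hM2 (by nlinarith only [hc1', h1])]
    rcases hz s (mem_range.1 hs) j hj i (mem_range.1 hi) with e | e <;> simp [e]
  obtain ⟨Mn, hMn, hnu⟩ : ∃ Mn : ℝ, Th N * (0.84 * U) ≤ Mn ∧ ∑ k ∈ range M, nuH N c1 (k / M) * G k = (M * Mn : ℝ) := by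
    refine ⟨∑ s ∈ range 8, ∑ j ∈ JW N s, lw j * ∑ i ∈ range (Ew s), ∑ v ∈ range (60 * j + 2),
      (tw s i / (Tw s * (60 * j + 2)) : ℝ) * AA N' (aw c3 w) (aw c4 w) (c1 * j + i * (60 * j + 2) + v), ?_, ?_⟩
    · rw [Th, sum_mul]
      refine sum_le_sum fun s hs => ?_
      rw [sum_mul]
      refine sum_le_sum fun j hj => mul_le_mul_of_nonneg_left ?_ (lw_nonneg j)
      rw [nu_conv]
      exact hmain s j (mem_range.1 hs) (mem_JW.1 hj).2.1
    · rw [nu_dual]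
      simp only [Complex.ofReal_mul, Complex.ofReal_sum, mul_sum _ _ ((M : ℝ) : ℂ)]
      refine sum_congr rfl fun s hs => sum_congr rfl fun j hj => ?_
      rw [mul_left_comm, mul_sum _ _ ((M : ℝ) : ℂ)]
      congr 1
      refine sum_congr rfl fun i hi => ?_
      rw [mul_sum]
      refine sum_congr rfl fun v hv => ?_
      have h1 := y_le hN' hNle (mem_range.1 hs) (mem_JW.1 hj).2.1 (mem_range.1 hi)
      have h2 := mem_range.1 hv
      rw [ortho3 hM2 (by nlinarith only [hc1', h1, h2]), mul_left_comm, Complex.ofReal_natCast]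
  have hMn0 : 0 ≤ Mn := le_trans (by positivity) hMn
  have hA : M * (0.84 * U) ≤ ∑ k ∈ range M, ‖phiH N c1 lam (k / M) - nuH N c1 (k / M)‖ / Th N * sg (k / M) := by
    have h1 : ‖∑ k ∈ range M, (phiH N c1 lam (k / M) - nuH N c1 (k / M)) * G k‖ = M * Mn := by
      simp only [sub_mul, sum_sub_distrib]
      rw [hphi, hnu, zero_sub, norm_neg, Complex.norm_real, Real.norm_of_nonneg (by positivity)]
    have h2 := h1.ge.trans (norm_sum_le _ _)
    simp only [norm_mul, hG] at h2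
    simp only [div_mul_eq_mul_div, ← sum_div]
    rw [le_div_iff₀ hT]
    nlinarith only [hMn, h2]
  have hB : M * (0.84 * U) ≤ ∑ k ∈ range M, ‖nuH N c1 (k / M)‖ / Th N * sg (k / M) := by
    have h1 : ‖∑ k ∈ range M, nuH N c1 (k / M) * G k‖ = M * Mn := by
      rw [hnu, Complex.norm_real, Real.norm_of_nonneg (by positivity)]
    have h2 := h1.ge.trans (norm_sum_le _ _)
    simp only [norm_mul, hG] at h2
    simp only [div_mul_eq_mul_div, ← sum_div]
    rw [le_div_iff₀ hT]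
    nlinarith only [hMn, h2]
  have hX := excess_le hM0 (by omega) hd (fun x => ‖phiH N c1 lam x - nuH N c1 x‖ / Th N) sg (Dact N c1 lam η) η
    (fun x n => by simp only [phiH_per, nuH_per]) sgp sg0 (Dact_nonneg N c1 lam η)
    (fun q b β => le_Dact N c1 lam η β) hoff
  have hε : (0 : ℝ) ≤ 38 / Real.sqrt N := by positivity
  have hV := princ_le hM0 (by omega : 0 < RR N) (fun x => ‖nuH N c1 x‖ / Th N) sg (38 / Real.sqrt N)
    (fun x n => by simp only [nuH_per]) sgp sg0 (fun x => by positivity) hε (nu_small hNu hN' hc1' hT)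
  have l3 := lp M (RR N) c3 (aw c3 w) (fun q t => Dact N c1 lam η q (t / M))
    (fun t => γ * (‖nuH N c1 (t / M)‖ / Th N)) κ hM0 hκ hd (hsift c3) fun q t => harc M q t hM0
  have l4 := lp M (RR N) c4 (aw c4 w) (fun q t => Dact N c1 lam η q (t / M))
    (fun t => γ * (‖nuH N c1 (t / M)‖ / Th N)) κ hM0 hκ hd (hsift c4) fun q t => harc M q t hM0
  have hX2 : ∑ x ∈ Arcs M (RR N), Dact N c1 lam η x.1 (x.2 / M) *
      ∑ b ∈ (range x.1).filter (fun b => b.Coprime x.1), sg (b / x.1 + x.2 / M) ≤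
      (∑ x ∈ Arcs M (RR N), Dact N c1 lam η x.1 (x.2 / M) *
        ∑ b ∈ (range x.1).filter (fun b => b.Coprime x.1), ‖SS M (aw c3 w) (b / x.1 + x.2 / M)‖ ^ 2 +
      ∑ x ∈ Arcs M (RR N), Dact N c1 lam η x.1 (x.2 / M) *
        ∑ b ∈ (range x.1).filter (fun b => b.Coprime x.1), ‖SS M (aw c4 w) (b / x.1 + x.2 / M)‖ ^ 2) / 2 := by
    rw [← sum_add_distrib, sum_div]
    refine sum_le_sum fun x _ => ?_
    rw [← mul_add, mul_div_assoc, ← sum_add_distrib, sum_div]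
    exact mul_le_mul_of_nonneg_left (sum_le_sum fun b _ => amgm _ _) (Dact_nonneg _ _ _ _ _ _)
  have hV2 : γ * ∑ x ∈ (Arcs M (RR N)).filter (fun x => x.1 = 1), ‖nuH N c1 (x.2 / M)‖ / Th N * sg (x.2 / M) ≤
      (∑ x ∈ (Arcs M (RR N)).filter (fun x => x.1 = 1),
        γ * (‖nuH N c1 (x.2 / M)‖ / Th N) * ‖SS M (aw c3 w) (x.2 / M)‖ ^ 2 +
      ∑ x ∈ (Arcs M (RR N)).filter (fun x => x.1 = 1),
        γ * (‖nuH N c1 (x.2 / M)‖ / Th N) * ‖SS M (aw c4 w) (x.2 / M)‖ ^ 2) / 2 := by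
    rw [← sum_add_distrib, sum_div, mul_sum]
    refine sum_le_sum fun x _ => ?_
    rw [← mul_add, mul_div_assoc, ← mul_assoc]
    exact mul_le_mul_of_nonneg_left (amgm _ _) (by positivity)
  have hη : ∑ k ∈ range M, min η (‖phiH N c1 lam (k / M) - nuH N c1 (k / M)‖ / Th N) * sg (k / M) ≤
      M * η * min (0.2736 * Real.log N - 0.24)
        (if Real.log N < 190 then 52 else if Real.log N ≤ 10 ^ 6 then 56 else 61) * U := by
    have h1 : ∑ k ∈ range M, min η (‖phiH N c1 lam (k / M) - nuH N c1 (k / M)‖ / Th N) * sg (k / M) ≤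
        M * η * (0.2736 * Real.log N - 0.24) * U := by
      refine (sum_le_sum fun k _ => mul_le_mul_of_nonneg_right (min_le_left _ _) (sg0 _)).trans ?_
      rw [← mul_sum]
      linarith only [mul_le_mul_of_nonneg_left hsg (show 0 ≤ η by linarith only [η1])]
    by_cases e : Real.log N < 190
    · rwa [if_pos e, min_eq_left (by linarith only [e])]
    · rw [if_neg e]
      rcases min_choice (0.2736 * Real.log N - 0.24) (if Real.log N ≤ 10 ^ 6 then 56 else 61) with e1 | e1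
      · rwa [e1]
      · rw [e1]
        exact hRb (not_lt.1 e) hNN hc1' hc3 hc4 hL hM hTh (by omega) η1 η2
  have hE0 : 0 ≤ (0.2736 * Real.log N - 0.24) * U := (sum_nonneg fun u _ => sq_nonneg _).trans e3
  have k3 := mul_le_mul_of_nonneg_left e3' (mul_nonneg hκ hMR.le)
  have k4 := mul_le_mul_of_nonneg_left e4' (mul_nonneg hκ hMR.le)
  have k5 := mul_le_mul_of_nonneg_left (hB.trans hV) γ0
  have k6 := mul_le_mul_of_nonneg_left hsg hε
  have k7 := mul_le_mul_of_nonneg_right γ1 (mul_nonneg hε (sum_nonneg fun k (_ : k ∈ range M) => sg0 ((k : ℝ) / M)))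
  have k8 := mul_lt_mul_of_pos_left hfin (mul_pos hMR U0)
  have k9 := hA.trans hX
  beta_reduce at k5 k9 l3 l4
  linarith only [hA, hX, l3, l4, hX2, hV2, hη, k3, k4, k5, k6, k7, k8]

theorem exists_classes {N : ℕ} (hN : 10 ^ 24 ≤ N) (he : Even N) : ∃ N' c1 c3 c4 : ℕ,
    N = 60 * N' + 2 * c1 + c3 + c4 + 2 ∧ (c1 = 59 ∨ c1 = 47) ∧ c3 ∈ [1, 11, 19, 29, 31, 41, 49, 59] ∧
      c4 ∈ [1, 11, 19, 29, 31, 41, 49, 59] := by
  have h : ∀ r < 30, ∃ c1 ∈ [59, 47], ∃ c3 ∈ [1, 11, 19, 29, 31, 41, 49, 59], ∃ c4 ∈ [1, 11, 19, 29, 31, 41, 49, 59],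
      (2 * c1 + c3 + c4 + 2) % 60 = 2 * r := by decide +kernel
  obtain ⟨m, rfl⟩ := he
  obtain ⟨c1, h1, c3, h3, c4, h4, e⟩ := h (m % 30) (Nat.mod_lt _ (by norm_num))
  have k : ∀ c ∈ [1, 11, 19, 29, 31, 41, 49, 59], c < 60 := by decide
  have k3 := k c3 h3
  have k4 := k c4 h4
  have k1 : c1 = 59 ∨ c1 = 47 := by simpa using h1
  exact ⟨(m + m - (2 * c1 + c3 + c4 + 2)) / 60, c1, c3, c4, by omega, k1, h3, h4⟩

/-- **the analytic theorem from the boxes** -/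
theorem big24 (hL59 : LBox 59) (hL47 : LBox 47) (hM : MainBox) (hNu : BoxNu) (hR : BoxR) (hNum : BoxNum) :
    ∀ N : ℕ, 10 ^ 24 ≤ N → Even N → ∃ l p₂ p₃ p₄ : ℕ, Safe l ∧ Good p₂ ∧ Good p₃ ∧ Good p₄ ∧
      3 * (l * (p₂ + 1)) < N ∧ N = l * (p₂ + 1) + (p₃ + 1) + (p₄ + 1) := by
  intro N hN he
  obtain ⟨N', c1, c3, c4, hNN, hc1, h3, h4⟩ := exists_classes hN he
  have k : ∀ c ∈ [1, 11, 19, 29, 31, 41, 49, 59], c < 60 ∧ c.Coprime 60 ∧ (c % 10 = 1 ∨ c % 10 = 9) := by decide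
  obtain ⟨a3, b3, d3⟩ := k c3 h3
  obtain ⟨a4, b4, d4⟩ := k c4 h4
  have hN' : 10 ^ 23 ≤ N := by omega
  have hL : LBox c1 := by
    rcases hc1 with rfl | rfl
    exacts [hL59, hL47]
  choose! lam hlam using hL
  obtain ⟨w, U, hW⟩ := hM N N' c1 c3 c4 hN' hNN (by omega) a3 a4 b3 b4
  have h := exists_term hNu hR hNum hN hNN hc1 a3 a4 hlam hW
  push Not at h
  obtain ⟨s, hs, j, hj, i, hi, h1, h2⟩ := h
  obtain ⟨u, -, h5⟩ := exists_ne_zero_of_sum_ne_zero h2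
  obtain ⟨v, -, h6⟩ := exists_ne_zero_of_sum_ne_zero h5
  have h7 : i * (60 * j + 2) + c1 * j + u + v = N' := by
    by_contra e
    exact h6 (if_neg e)
  rw [if_pos h7] at h6
  obtain ⟨p3, w3⟩ := aw_ne (left_ne_zero_of_mul h6)
  obtain ⟨p4, w4⟩ := aw_ne (right_ne_zero_of_mul h6)
  have s3 := (hW.2.2.1 u w3).1
  have s4 := (hW.2.2.1 v w4).1
  obtain ⟨-, j1, j2⟩ := mem_JW.1 hj
  have j3 : (19 : ℝ) ≤ 60 * j + 1 := by linarith only [(inW_bounds j1).1, BB_ge hN']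
  have j4 : 19 ≤ 60 * j + 1 := by exact_mod_cast j3
  refine ⟨60 * i + c1, 60 * j + 1, 60 * u + c3, 60 * v + c4, ((hlam s hs).2.1 i h1).2.2, ⟨j2, j4, by omega⟩,
    ⟨p3, by omega, by (clear * - d3 d4; omega)⟩, ⟨p4, by omega, by omega⟩, three_lt hN' (by omega) hs j1 hi, ?_⟩
  rw [hNN, ← h7]
  ring

end Cfsg.Agent.Depth.K

private theorem dce_78024365e7d7 : _root_.True := by
  try have : _root_.True := by simp only [_root_.Cfsg.Agent.Depth.Th.eq_1]
  exact _root_.True.intro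
end
end
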