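import Cfsg.Agent.Depth.N.Main_m3
import Cfsg.Agent.Depth.L.N59s2_m3
import Cfsg.Agent.Depth.N.Run2_m3
import Cfsg.Agent.Depth.P.Id_m3
import Cfsg.Agent.Prune
set_option linter.all false

section
prune_inst 0x7ffffffdffbfffffffff7e7ffffffffffffffffffffffbfbffeffffffffffff7fbfdffafffeff9ffff77feff3afcfbf7ff7eefffeeffdc7ffffdfff47fffffefffffbfad75dfbffeffffbffff3ffffae7f3fffffffffffffffffffffffffffffffffffffffff

-- part: Depth/L/N59s4
section
prune_inst 0x20040000000008000000000000000000000000000001000000000000804000000000002000008000000020000008110001100200000000000800000000000005080204000000000000000004000000000000000000000000000000000000000000000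
set_option linter.all false

/-! Depth L: the runs of the window 4 in the class 59 (generated). -/

set_option autoImplicit false
set_option Elab.async false

namespace Cfsg.Agent.Depth.L

/-! A run is cut into stages; `V`, `W`, `X` are the numbers that pass from stage to stage. -/

private def cR (S : ℕ) (P : Par) : ℕ := lanesG S P.lo (Nat.succ P.N)
private def cOn (P : Par) : ℕ := onH (Nat.succ P.N)
private def cH1 (P : Par) : ℕ := Nat.div P.N 2
private def cOh (P : Par) : ℕ := onH (Nat.succ (cH1 P))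
private def cBe (S : ℕ) (P : Par) : ℕ := Nat.land (cOh P) (cR S P)
private def cBo (S : ℕ) (P : Par) : ℕ := Nat.land (cOh P) (Nat.shiftRight (cR S P) 28)
private def cGe (S : ℕ) (P : Par) : ℕ := gH (cOh P) (ogH (cOh P) (cH1 P) P.κ) (cBe S P) P.K (Nat.succ (cH1 P)) (P.ev 0)
private def cGo (S : ℕ) (P : Par) : ℕ := Nat.shiftLeft (gH (cOh P) (ogH (cOh P) (cH1 P) P.κ) (cBo S P) P.K (Nat.succ (cH1 P)) (P.ev 1)) 28
private def valV (S : ℕ) (P : Par) : ℕ := Nat.add (Nat.add (cGe S P) (cGo S P)) (Nat.mul 4398046527488 (cOh P))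
private def lowH (on V : ℕ) : ℕ := Nat.land (Nat.mul 268435455 on) V
private def vE (P : Par) (V : ℕ) : ℕ := Nat.sub (lowH (cOh P) V) (Nat.shiftLeft (cOh P) 14)
private def vS (P : Par) (V : ℕ) : ℕ := Nat.sub V (Nat.mul 4398046527488 (cOh P))
private def chkA (S : ℕ) (P : Par) (V : ℕ) : Bool :=
  and (gHOK (cOh P) (ogH (cOh P) (cH1 P) P.κ) (cBe S P) P.K (Nat.succ (cH1 P)) (P.ev 0))
    (and (gHOK (cOh P) (ogH (cOh P) (cH1 P) P.κ) (cBo S P) P.K (Nat.succ (cH1 P)) (P.ev 1))
      (and (Nat.beq (cGe S P) (vE P V)) (Nat.beq (Nat.add (cGe S P) (cGo S P)) (vS P V))))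
private def chkL (S : ℕ) (P : Par) (h : ℕ × ℕ × ℕ) : Bool :=
  lamQ (cOh P) (Nat.shiftRight (Nat.succ P.N) 5) (Nat.div (Nat.succ (cH1 P)) 2) h.2.1 P.b2 (cBe S P) (cBo S P)
    (lamH (cBe S P) (Nat.succ (cH1 P)) (P.ev 0)) (lamH (cBo S P) (Nat.succ (cH1 P)) (P.ev 1))
private def cP1 (P : Par) (V : ℕ) : ℕ := Nat.pow (vS P V) 2
private def cP2 (P : Par) (V : ℕ) : ℕ := Nat.pow (dist2 (vE P V) (Nat.sub (vS P V) (vE P V))) 2
private def cO1 (P : Par) (h : ℕ × ℕ × ℕ) : ℕ := Nat.mul (Nat.shiftLeft 65537 (Nat.pred h.1)) (cOn P)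
private def cS0 (P : Par) (h : ℕ × ℕ × ℕ) (V : ℕ) : ℕ := Nat.add (Nat.shiftRight (Nat.add (cP1 P V) (cP2 P V)) 1) (cO1 P h)
private def cS1 (P : Par) (h : ℕ × ℕ × ℕ) (V : ℕ) : ℕ := Nat.add (Nat.shiftRight (Nat.sub (cP1 P V) (cP2 P V)) 29) (cO1 P h)
private def cT0 (P : Par) (h : ℕ × ℕ × ℕ) (V : ℕ) : ℕ := mv (md (cOn P) 65535 h.1 (cS0 P h V)) h.1 0
private def cT1 (P : Par) (h : ℕ × ℕ × ℕ) (V : ℕ) : ℕ := mv (md (cOn P) 65535 h.1 (cS1 P h V)) h.1 28
private def valW (P : Par) (h : ℕ × ℕ × ℕ) (V : ℕ) : ℕ := Nat.add (cT0 P h V) (cT1 P h V)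
private def chkB (P : Par) (h : ℕ × ℕ × ℕ) (V W : ℕ) : Bool :=
  and (hiOK (cOn P) (Nat.add h.1 16) (cS0 P h V)) (and (hiOK (cOn P) (Nat.add h.1 16) (cS1 P h V))
    (and (Nat.beq (cT0 P h V) (lowH (cOn P) W)) (Nat.beq (cT1 P h V) (Nat.sub W (lowH (cOn P) W)))))
private def cQ1 (P : Par) (W : ℕ) : ℕ := Nat.pow (dist2 W (Nat.mul 8796093054976 (cOn P))) 2
private def cQ2 (P : Par) (W : ℕ) : ℕ :=
  Nat.pow (dist2 (Nat.add (lowH (cOn P) W) (Nat.mul 8796092989440 (cOn P))) (Nat.sub W (lowH (cOn P) W))) 2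
private def cO2 (P : Par) (h : ℕ × ℕ × ℕ) : ℕ := Nat.shiftLeft (cOn P) (Nat.add h.2.2 9)
private def cU0 (P : Par) (h : ℕ × ℕ × ℕ) (W : ℕ) : ℕ := Nat.add (Nat.add (cQ1 P W) (cQ2 P W)) (cO2 P h)
private def cU2 (P : Par) (h : ℕ × ℕ × ℕ) (W : ℕ) : ℕ := Nat.add (Nat.shiftRight (dist2 (cQ1 P W) (cQ2 P W)) 28) (cO2 P h)
private def cUp (P : Par) (h : ℕ × ℕ × ℕ) (U : ℕ) : ℕ := Nat.add (Nat.shiftRight U (Nat.mul 56 (Nat.succ P.N))) (cO2 P h)
private def cX (P : Par) (h : ℕ × ℕ × ℕ) (U b : ℕ) : ℕ :=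
  Nat.add (mv (md (cOn P) 1023 h.2.2 U) h.2.2 b) (mv (md (cOn P) 1023 h.2.2 (cUp P h U)) h.2.2 (Nat.add b 14))
private def valX (P : Par) (h : ℕ × ℕ × ℕ) (W : ℕ) : ℕ := Nat.add (cX P h (cU0 P h W) 0) (cX P h (cU2 P h W) 28)
private def chkC (P : Par) (h : ℕ × ℕ × ℕ) (U b Y : ℕ) : Bool :=
  and (hiOK (cOn P) (Nat.add h.2.2 10) U) (and (hiOK (cOn P) (Nat.add h.2.2 10) (cUp P h U)) (Nat.beq (cX P h U b) Y))
private def chkC0 (P : Par) (h : ℕ × ℕ × ℕ) (W X : ℕ) : Bool := chkC P h (cU0 P h W) 0 (lowH (cOn P) X)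
private def chkC1 (P : Par) (h : ℕ × ℕ × ℕ) (W X : ℕ) : Bool := chkC P h (cU2 P h W) 28 (Nat.sub X (lowH (cOn P) X))
private def fD (w : ℕ) : ℕ → ℕ := blk (fun X => ts (onH w) (sqA (Nat.mul 4398314962945 (onH w)) (ab (Nat.mul 4398314962945 (onH w)) X))) (Nat.mul 56 w) 4
private def valD0 (P : Par) (X : ℕ) : ℕ := (fun w => fD w (Nat.land (Nat.pred (Nat.shiftLeft 1 (Nat.shiftLeft (Nat.mul 56 w) 4))) X)) (Nat.shiftRight (Nat.succ P.N) 5)
private def valD1 (P : Par) (X : ℕ) : ℕ := (fun w => fD w (Nat.shiftRight X (Nat.shiftLeft (Nat.mul 56 w) 4))) (Nat.shiftRight (Nat.succ P.N) 5)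

private def chkD (P : Par) (h : ℕ × ℕ × ℕ) (X d : ℕ) : Bool :=
  Nat.ble (Nat.shiftLeft (Nat.add (Nat.add d (valD1 P X)) (Nat.mul 4 (Nat.succ P.N))) (Nat.add (Nat.add h.2.2 h.2.2) 2)) P.bt

private theorem lowH_add (on V : ℕ) : Nat.add (lowH on V) (Nat.sub V (lowH on V)) = V :=
  Nat.add_sub_cancel' (show Nat.mul 268435455 on &&& V ≤ V from Nat.and_le_right)

private theorem runQ_cut {S V W X d : ℕ} {P : Par} {h : ℕ × ℕ × ℕ} (hN : Nat.beq (Nat.succ P.N) (Nat.add (Nat.succ (cH1 P)) (Nat.succ (cH1 P))) = true)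
    (a : chkA S P V = true) (l : chkL S P h = true) (b : chkB P h V W = true) (c0 : chkC0 P h W X = true)
    (c1 : chkC1 P h W X = true) (e0 : Nat.beq (valD0 P X) d = true) (e1 : chkD P h X d = true) : runQ S P h = true := by
  have an : ∀ {x y : Bool}, x = true → y = true → and x y = true := fun hx hy => Bool.and_eq_true_iff.2 ⟨hx, hy⟩
  have ae : ∀ {x y : Bool}, and x y = true → x = true ∧ y = true := fun hx => Bool.and_eq_true_iff.1 hx
  have oh : Nat.shiftRight (onH (Nat.succ P.N)) (Nat.mul 56 (Nat.succ (Nat.div P.N 2))) = cOh P := by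
    rw [Nat.eq_of_beq_eq_true hN, onH_eq]
    exact (ones_shr _ _).trans (onH_eq _).symm
  obtain ⟨a0, a⟩ := ae a
  obtain ⟨a1, a⟩ := ae a
  obtain ⟨a2, a3⟩ := ae a
  obtain ⟨b0, b⟩ := ae b
  obtain ⟨b1, b⟩ := ae b
  obtain ⟨b2, b3⟩ := ae b
  obtain ⟨c2, c0⟩ := ae c0
  obtain ⟨c3, c0⟩ := ae c0
  obtain ⟨c4, c1⟩ := ae c1
  obtain ⟨c5, c1⟩ := ae c1
  replace a2 := Nat.eq_of_beq_eq_true a2
  replace a3 := Nat.eq_of_beq_eq_true a3
  replace b2 := Nat.eq_of_beq_eq_true b2
  replace b3 := Nat.eq_of_beq_eq_true b3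
  replace c0 := Nat.eq_of_beq_eq_true c0
  replace c1 := Nat.eq_of_beq_eq_true c1
  replace e0 := Nat.eq_of_beq_eq_true e0
  have a4 : cGo S P = Nat.sub (vS P V) (vE P V) := by
    rw [← a3, ← a2]
    exact (Nat.add_sub_cancel_left _ _).symm
  have x : pk (cOn P) 1023 h.2.2 (cU0 P h W) (cUp P h (cU0 P h W)) (cU2 P h W) (cUp P h (cU2 P h W)) = X :=
    (congrArg₂ Nat.add c0 c1).trans (lowH_add _ _)
  have y : lastA (cOn P) (Nat.shiftRight (Nat.succ P.N) 5) (Nat.succ P.N) h.2.2 (cU0 P h W) (cUp P h (cU0 P h W)) (cU2 P h W)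
      (cUp P h (cU2 P h W)) = Nat.shiftLeft (Nat.add (Nat.add d (valD1 P X)) (Nat.mul 4 (Nat.succ P.N))) (Nat.add (Nat.add h.2.2 h.2.2) 2) := by
    delta lastA
    rw [x, ← e0]
    rfl
  have q2 : sq2 (cOn P) (Nat.shiftRight (Nat.succ P.N) 5) (Nat.succ P.N) P.bt h.2.2 (cQ1 P W) (cQ2 P W) (cO2 P h) = true :=
    an c2 (an c3 (an c4 (an c5 ((congrArg (fun z => Nat.ble z P.bt) y).trans e1))))
  have q1 : sq1b (cOn P) (Nat.shiftRight (Nat.succ P.N) 5) (Nat.succ P.N) P.bt h (cS0 P h V) (cS1 P h V) = true := by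
    refine an b0 (an b1 ?_)
    change sq2 _ _ _ _ _ (Nat.pow (dist2 (Nat.add (cT0 P h V) (cT1 P h V)) _) 2) (Nat.pow (dist2 (Nat.add (cT0 P h V) _) (cT1 P h V)) 2) _ = true
    rw [b2, b3, lowH_add]
    exact q2
  have q0 : sq1 (cOn P) (Nat.shiftRight (Nat.succ P.N) 5) (Nat.succ P.N) P.bt h (cGe S P) (cGo S P) = true := by
    delta sq1
    rw [a3, a4, a2]
    exact q1
  delta runQ
  beta_reduce
  rw [oh]
  exact an a0 (an a1 (an l q0))


private def n59s4aP : Par := (pA 59 4 24061442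
    ⟨0, 14247324, 49992574602134, 954847, 8192, 46381701398529, 0, 2170695292036472521323439980, 66, 1, 294⟩)

set_option maxRecDepth 100000 in
private noncomputable def n59s4aV : ℕ := beta% (fun (x : ℕ) (_ : valV S59 n59s4aP = x) => x) _ (by conv_lhs => whnf)

set_option maxRecDepth 100000 in
private noncomputable def n59s4aW : ℕ := beta% (fun (x : ℕ) (_ : valW n59s4aP ⟨24, 43, 30⟩ n59s4aV = x) => x) _ (by conv_lhs => whnf)

set_option maxRecDepth 100000 in
private noncomputable def n59s4aX : ℕ := beta% (fun (x : ℕ) (_ : valX n59s4aP ⟨24, 43, 30⟩ n59s4aW = x) => x) _ (by conv_lhs => whnf)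

set_option maxRecDepth 100000 in
private noncomputable def n59s4aD : ℕ := beta% (fun (x : ℕ) (_ : valD0 n59s4aP n59s4aX = x) => x) _ (by conv_lhs => whnf)

private theorem n59s4a1 : chkA S59 n59s4aP n59s4aV = true := by
  decide +kernel

private theorem n59s4a2 : chkL S59 n59s4aP ⟨24, 43, 30⟩ = true := by
  decide +kernel

private theorem n59s4a3 : chkB n59s4aP ⟨24, 43, 30⟩ n59s4aV n59s4aW = true := by
  decide +kernel

private theorem n59s4a4 : chkC0 n59s4aP ⟨24, 43, 30⟩ n59s4aW n59s4aX = true := by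
  decide +kernel

private theorem n59s4a5 : chkC1 n59s4aP ⟨24, 43, 30⟩ n59s4aW n59s4aX = true := by
  decide +kernel

private theorem n59s4a6 : Nat.beq (valD0 n59s4aP n59s4aX) n59s4aD = true := by
  decide +kernel

private theorem n59s4a7 : chkD n59s4aP ⟨24, 43, 30⟩ n59s4aX n59s4aD = true := by
  decide +kernel

theorem n59s4a : runQ S59 (pA 59 4 24061442
    ⟨0, 14247324, 49992574602134, 954847, 8192, 46381701398529, 0, 2170695292036472521323439980, 66, 1, 294⟩) ⟨24, 43, 30⟩ = true :=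
  runQ_cut (P := n59s4aP) (by decide +kernel) n59s4a1 n59s4a2 n59s4a3 n59s4a4 n59s4a5 n59s4a6 n59s4a7

private def n59s4bP : Par := (pB 59 4 24061442
    ⟨55799704711194, 665650, 56286004759743, 499313, 8192, 82786267168769, 0, 1689194566564554482401102790, 62, 1, 402⟩)

set_option maxRecDepth 100000 in
private noncomputable def n59s4bV : ℕ := beta% (fun (x : ℕ) (_ : valV S59 n59s4bP = x) => x) _ (by conv_lhs => whnf)

set_option maxRecDepth 100000 in
private noncomputable def n59s4bW : ℕ := beta% (fun (x : ℕ) (_ : valW n59s4bP ⟨25, 43, 30⟩ n59s4bV = x) => x) _ (by conv_lhs => whnf)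

set_option maxRecDepth 100000 in
private noncomputable def n59s4bX : ℕ := beta% (fun (x : ℕ) (_ : valX n59s4bP ⟨25, 43, 30⟩ n59s4bW = x) => x) _ (by conv_lhs => whnf)

set_option maxRecDepth 100000 in
private noncomputable def n59s4bD : ℕ := beta% (fun (x : ℕ) (_ : valD0 n59s4bP n59s4bX = x) => x) _ (by conv_lhs => whnf)

private theorem n59s4b1 : chkA S59 n59s4bP n59s4bV = true := by
  decide +kernel

private theorem n59s4b2 : chkL S59 n59s4bP ⟨25, 43, 30⟩ = true := by
  decide +kernel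

private theorem n59s4b3 : chkB n59s4bP ⟨25, 43, 30⟩ n59s4bV n59s4bW = true := by
  decide +kernel

private theorem n59s4b4 : chkC0 n59s4bP ⟨25, 43, 30⟩ n59s4bW n59s4bX = true := by
  decide +kernel

private theorem n59s4b5 : chkC1 n59s4bP ⟨25, 43, 30⟩ n59s4bW n59s4bX = true := by
  decide +kernel

private theorem n59s4b6 : Nat.beq (valD0 n59s4bP n59s4bX) n59s4bD = true := by
  decide +kernel

private theorem n59s4b7 : chkD n59s4bP ⟨25, 43, 30⟩ n59s4bX n59s4bD = true := by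
  decide +kernel

theorem n59s4b : runQ S59 (pB 59 4 24061442
    ⟨55799704711194, 665650, 56286004759743, 499313, 8192, 82786267168769, 0, 1689194566564554482401102790, 62, 1, 402⟩) ⟨25, 43, 30⟩ = true :=
  runQ_cut (P := n59s4bP) (by decide +kernel) n59s4b1 n59s4b2 n59s4b3 n59s4b4 n59s4b5 n59s4b6 n59s4b7

private def n59s4cP : Par := (pC 59 4 24061442
    ⟨59311928206374, 408352, 100722138795543, -16496435, 8192, 51984099639297, 0, 2879609882327312505991189233, 71, 1, 304⟩)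

set_option maxRecDepth 100000 in
private noncomputable def n59s4cV : ℕ := beta% (fun (x : ℕ) (_ : valV S59 n59s4cP = x) => x) _ (by conv_lhs => whnf)

set_option maxRecDepth 100000 in
private noncomputable def n59s4cW : ℕ := beta% (fun (x : ℕ) (_ : valW n59s4cP ⟨24, 43, 30⟩ n59s4cV = x) => x) _ (by conv_lhs => whnf)

set_option maxRecDepth 100000 in
private noncomputable def n59s4cX : ℕ := beta% (fun (x : ℕ) (_ : valX n59s4cP ⟨24, 43, 30⟩ n59s4cW = x) => x) _ (by conv_lhs => whnf)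

set_option maxRecDepth 100000 in
private noncomputable def n59s4cD : ℕ := beta% (fun (x : ℕ) (_ : valD0 n59s4cP n59s4cX = x) => x) _ (by conv_lhs => whnf)

private theorem n59s4c1 : chkA S59 n59s4cP n59s4cV = true := by
  decide +kernel

private theorem n59s4c2 : chkL S59 n59s4cP ⟨24, 43, 30⟩ = true := by
  decide +kernel

private theorem n59s4c3 : chkB n59s4cP ⟨24, 43, 30⟩ n59s4cV n59s4cW = true := by
  decide +kernel

private theorem n59s4c4 : chkC0 n59s4cP ⟨24, 43, 30⟩ n59s4cW n59s4cX = true := by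
  decide +kernel

private theorem n59s4c5 : chkC1 n59s4cP ⟨24, 43, 30⟩ n59s4cW n59s4cX = true := by
  decide +kernel

private theorem n59s4c6 : Nat.beq (valD0 n59s4cP n59s4cX) n59s4cD = true := by
  decide +kernel

private theorem n59s4c7 : chkD n59s4cP ⟨24, 43, 30⟩ n59s4cX n59s4cD = true := by
  decide +kernel

theorem n59s4c : runQ S59 (pC 59 4 24061442
    ⟨59311928206374, 408352, 100722138795543, -16496435, 8192, 51984099639297, 0, 2879609882327312505991189233, 71, 1, 304⟩) ⟨24, 43, 30⟩ = true :=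
  runQ_cut (P := n59s4cP) (by decide +kernel) n59s4c1 n59s4c2 n59s4c3 n59s4c4 n59s4c5 n59s4c6 n59s4c7

theorem n59s4 : ∃ lam : ℕ → ℝ, LFacts 59 4 0.001 (n8T 4 / 10 ^ 22) (n2T 4 / 10 ^ 9) lam :=
  winQ boxTab boxTabW (sf_of s59 (by decide +kernel)) n59s4a n59s4b n59s4c (by decide +kernel)
    (by delta winN; norm_num [u8, c8, Tw, Yw, nw, kk, n8T, n2T])

end Cfsg.Agent.Depth.L
end

-- part: Depth/P/Fac
section
prune_inst 0x80000000010000000000000000010000000003000000100000000208000001000040000c00001180c00000000000000000000000000000000000000000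
set_option linter.all false
open scoped Cfsg.Agent.FastGrp

/-!
# Depth (S5768): kernel facts on the coefficients
-/

set_option autoImplicit false
set_option Elab.async false

namespace Cfsg.Agent.Depth.P

open Finset

/-- sum of `g (k + i)` over the set bits `i < 2 ^ d` of `x` -/
private def tr (g : ℕ → ℕ) (d : ℕ) : ℕ → ℕ → ℕ :=
  Nat.rec (motive := fun _ => ℕ → ℕ → ℕ) (fun x k => cond (Nat.beq x 0) 0 (g k))
    (fun d ih x k => cond (Nat.beq x 0) 0
      (Nat.add (ih (Nat.mod x (Nat.shiftLeft 1 (Nat.shiftLeft 1 d))) k)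
        (ih (Nat.shiftRight x (Nat.shiftLeft 1 d)) (Nat.add k (Nat.shiftLeft 1 d))))) d

private theorem tr_eq (g : ℕ → ℕ) (d x k : ℕ) (h : x < 2 ^ 2 ^ d) :
    tr g d x k = ∑ i ∈ range (2 ^ d), if x.testBit i then g (k + i) else 0 := by
  induction d generalizing x k with
  | zero =>
    have h1 : x = 0 ∨ x = 1 := by simp at h; omega
    rcases h1 with rfl | rfl <;> rfl
  | succ d ih =>
    change cond (Nat.beq x 0) 0 (tr g d (x % (1 <<< (1 <<< d))) k + tr g d (x >>> (1 <<< d)) (k + 1 <<< d)) = _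
    rcases Nat.eq_zero_or_pos x with h0 | h0
    · subst h0; simp
    have e : Nat.beq x 0 = false := by rw [← Bool.not_eq_true, Nat.beq_eq]; omega
    rw [pow_succ, mul_two] at h ⊢
    rw [e, cond_false, Nat.one_shiftLeft, Nat.one_shiftLeft, ih _ _ (Nat.mod_lt _ (Nat.two_pow_pos _)), ih, sum_range_add]
    · congr 1
      · refine sum_congr rfl fun i hi => ?_
        rw [Nat.testBit_mod_two_pow, decide_eq_true (mem_range.1 hi), Bool.true_and]
      · refine sum_congr rfl fun i _ => ?_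
        rw [Nat.testBit_shiftRight, add_assoc]
    · rw [Nat.shiftRight_eq_div_pow, Nat.div_lt_iff_lt_mul (Nat.two_pow_pos _), ← pow_add]; exact h

/-- the same over the dyadic blocks; `g` gets the binary logarithm -/
private def dy (g : ℕ → ℕ → ℕ) (A d : ℕ) : ℕ :=
  Nat.rec (motive := fun _ => ℕ) 0 (fun e a => Nat.add a (tr (g e) e
    (Nat.mod (Nat.shiftRight A (Nat.shiftLeft 1 e)) (Nat.shiftLeft 1 (Nat.shiftLeft 1 e))) (Nat.shiftLeft 1 e))) d

private theorem dy_eq (g : ℕ → ℕ → ℕ) (A d : ℕ) :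
    dy g A d = ∑ k ∈ Ico 1 (2 ^ d), if A.testBit k then g k.log2 k else 0 := by
  induction d with
  | zero => rfl
  | succ e ih =>
    change dy g A e + tr (g e) e ((A >>> (1 <<< e)) % (1 <<< (1 <<< e))) (1 <<< e) = _
    rw [ih, Nat.one_shiftLeft, Nat.one_shiftLeft, tr_eq _ _ _ _ (Nat.mod_lt _ (Nat.two_pow_pos _)),
      ← sum_Ico_consecutive _ Nat.one_le_two_pow (Nat.pow_le_pow_right (by norm_num) (Nat.le_succ e)),
      sum_Ico_eq_sum_range _ (2 ^ e), show 2 ^ e.succ - 2 ^ e = 2 ^ e by rw [Nat.pow_succ]; omega]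
    congr 1
    refine sum_congr rfl fun i hi => ?_
    have h1 := mem_range.1 hi
    have h2 := Nat.two_pow_pos e
    rw [Nat.testBit_mod_two_pow, Nat.testBit_shiftRight, decide_eq_true h1, Bool.true_and,
      (Nat.log2_eq_iff (by omega)).2 ⟨Nat.le_add_right _ _, by rw [Nat.pow_succ]; omega⟩]

private def sF (A K d : ℕ) (g : ℕ → ℕ → ℕ) : ℕ := dy g (Nat.mod A (Nat.shiftLeft 1 (Nat.succ K))) d

private theorem sF_eq {A K d : ℕ} (h : K < 2 ^ d) (g : ℕ → ℕ → ℕ) :
    sF A K d g = ∑ k ∈ Icc 1 K, if A.testBit k then g k.log2 k else 0 := by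
  change dy g (A % (1 <<< (K + 1))) d = _
  rw [dy_eq, Nat.one_shiftLeft]
  symm
  refine sum_subset_zero_on_sdiff (fun k hk => ?_) (fun u hu => ?_) fun u hu => ?_
  · simp only [mem_Icc, mem_Ico] at hk ⊢; omega
  · simp only [mem_sdiff, mem_Icc, mem_Ico] at hu
    rw [Nat.testBit_mod_two_pow, decide_eq_false (by omega), Bool.false_and]; rfl
  · rw [Nat.testBit_mod_two_pow, decide_eq_true (Nat.lt_succ_of_le (mem_Icc.1 hu).2), Bool.true_and]

private def lgF (e n : ℕ) : ℕ :=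
  (fun a b => Nat.add (Nat.add (Nat.add (Nat.add (Nat.add (Nat.mul e 6931471803)
    (Nat.div (Nat.mul 20000000000 (Nat.pow a 1)) (Nat.mul 1 (Nat.pow b 1))))
    (Nat.div (Nat.mul 20000000000 (Nat.pow a 3)) (Nat.mul 3 (Nat.pow b 3))))
    (Nat.div (Nat.mul 20000000000 (Nat.pow a 5)) (Nat.mul 5 (Nat.pow b 5))))
    (Nat.div (Nat.mul 20000000000 (Nat.pow a 7)) (Nat.mul 7 (Nat.pow b 7))))
    (Nat.div (Nat.mul 20000000000 (Nat.pow a 9)) (Nat.mul 9 (Nat.pow b 9))))
  (Nat.sub n (Nat.pow 2 e)) (Nat.add n (Nat.pow 2 e))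

/-- the three sums in one number -/
private def chkQ (W K d A n s l B : ℕ) : Bool :=
  Nat.blt K (Nat.pow 2 d) && Nat.blt (Nat.mul K 100000000000000000000) B &&
  Nat.beq (sF A K d fun e k => Nat.add (cond (Nat.beq (Nat.gcd k W) 1) 1 1000000)
    (Nat.mul B (Nat.add (Nat.div 100000000000000000000 k) (Nat.mul B (Nat.div (Nat.mul (lgF e k) 10000000000) k)))))
    (Nat.add n (Nat.mul B (Nat.add s (Nat.mul B l)))) && Nat.blt n B && Nat.blt s B

private theorem unpack {a b c d B : ℕ} (h1 : a < B) (h2 : c < B) (h : a + B * b = c + B * d) : a = c ∧ b = d := by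
  have e1 := congrArg (· % B) h
  simp only [Nat.add_mul_mod_self_left, Nat.mod_eq_of_lt h1, Nat.mod_eq_of_lt h2] at e1
  subst e1
  exact ⟨rfl, Nat.eq_of_mul_eq_mul_left (by omega) (Nat.add_left_cancel h)⟩

private theorem chkQ_sound {W K d A n s l : ℕ} (B : ℕ) (h : chkQ W K d A n s l B = true) :
    chkM W K d A n s l = true := by
  simp only [chkQ, Bool.and_eq_true, Nat.blt_eq, Nat.beq_eq] at h
  obtain ⟨⟨⟨⟨h1, h2⟩, h3⟩, h4⟩, h5⟩ := h
  have h1 : K < 2 ^ d := h1
  have h2 : K * 100000000000000000000 < B := h2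
  have bd : ∀ f : ℕ → ℕ, (∀ k, f k ≤ 100000000000000000000) →
      (∑ k ∈ Icc 1 K, if A.testBit k then f k else 0) < B := fun f hf => by
    refine lt_of_le_of_lt ((sum_le_card_nsmul _ _ 100000000000000000000 fun k _ => ?_).trans (le_of_eq ?_)) h2
    · split_ifs
      · exact hf k
      · exact Nat.zero_le _
    · rw [Nat.card_Icc, smul_eq_mul, Nat.add_sub_cancel]
  have e : (∑ k ∈ Icc 1 K, if A.testBit k then (bif Nat.beq (Nat.gcd k W) 1 then 1 else 1000000) else 0) +
      B * ((∑ k ∈ Icc 1 K, if A.testBit k then 100000000000000000000 / k else 0) +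
        B * ∑ k ∈ Icc 1 K, if A.testBit k then lgLo k * 10000000000 / k else 0) = n + B * (s + B * l) := by
    rw [sF_eq h1] at h3
    refine Eq.trans ?_ h3
    rw [mul_sum, ← sum_add_distrib, mul_sum, ← sum_add_distrib]
    refine sum_congr rfl fun k _ => ?_
    split_ifs <;> rfl
  obtain ⟨e1, e2⟩ := unpack (bd _ fun k => by cases Nat.beq (Nat.gcd k W) 1 <;> decide) h4 e
  obtain ⟨e2, e3⟩ := unpack (bd _ fun k => Nat.div_le_self _ _) h5 e2
  simp only [chkM, Bool.and_eq_true, Nat.ble_eq, Nat.beq_eq, sA_eq h1.le]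
  exact ⟨⟨e1.le, e2⟩, e3⟩

theorem fp60 : chkM 60 23000 15 Ap60 2422 157271346505481043477 425456003890717718205 = true :=
  chkQ_sound (10 ^ 30) (by decide +kernel)

theorem fm60 : chkM 60 23000 15 Am60 2764 157271346505481043293 799899538963699369469 = true :=
  chkQ_sound (10 ^ 30) (by decide +kernel)

theorem facts60 : Facts 60 23000 Ap60 Am60 (2422 + 2764) 3744395 3744476 :=
  facts_of fp60 fm60 (by decide +kernel)

theorem fp120 : chkM 120 23000 15 Ap60 2422 157271346505481043477 425456003890717718205 = true :=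
  chkQ_sound (10 ^ 30) (by decide +kernel)

theorem fm120 : chkM 120 23000 15 Am60 2764 157271346505481043293 799899538963699369469 = true :=
  chkQ_sound (10 ^ 30) (by decide +kernel)

theorem facts120 : Facts 120 23000 Ap60 Am60 (2422 + 2764) 3744395 3744476 :=
  facts_of fp120 fm120 (by decide +kernel)

theorem fp840 : chkM 840 34000 16 Ap840 3080 144979001486052148652 360471788405216888935 = true :=
  chkQ_sound (10 ^ 30) (by decide +kernel)

theorem fm840 : chkM 840 34000 16 Am840 3840 144979001486052245716 796931867577495892938 = true :=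
  chkQ_sound (10 ^ 30) (by decide +kernel)

theorem facts840 : Facts 840 34000 Ap840 Am840 (3080 + 3840) 4364560 4364641 :=
  facts_of fp840 fm840 (by decide +kernel)

theorem fp1320 : chkM 1320 23000 15 Ap1320 2144 146747445781910901349 355127307231392934508 = true :=
  chkQ_sound (10 ^ 30) (by decide +kernel)

theorem fm1320 : chkM 1320 23000 15 Am1320 2722 146747445781911744047 766420460858518845997 = true :=
  chkQ_sound (10 ^ 30) (by decide +kernel)

theorem facts1320 : Facts 1320 23000 Ap1320 Am1320 (2144 + 2722) 4112891 4112972 :=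
  facts_of fp1320 fm1320 (by decide +kernel)

theorem fp1560 : chkM 1560 23000 15 Ap1560 2180 148423855174208842266 365672553820644912877 = true :=
  chkQ_sound (10 ^ 30) (by decide +kernel)

theorem fm1560 : chkM 1560 23000 15 Am1560 2734 148423855174209311133 770773663455223454133 = true :=
  chkQ_sound (10 ^ 30) (by decide +kernel)

theorem facts1560 : Facts 1560 23000 Ap1560 Am1560 (2180 + 2734) 4050971 4051052 :=
  facts_of fp1560 fm1560 (by decide +kernel)

theorem fp2040 : chkM 2040 23000 15 Ap2040 2233 150626166438029004458 379725477955719852236 = true :=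
  chkQ_sound (10 ^ 30) (by decide +kernel)

theorem fm2040 : chkM 2040 23000 15 Am2040 2754 150626166438027863987 777088662604675686789 = true :=
  chkQ_sound (10 ^ 30) (by decide +kernel)

theorem facts2040 : Facts 2040 23000 Ap2040 Am2040 (2233 + 2754) 3973591 3973672 :=
  facts_of fp2040 fm2040 (by decide +kernel)

theorem fp2280 : chkM 2280 23000 15 Ap2280 2249 151371091060562811368 384495353402241226159 = true :=
  chkQ_sound (10 ^ 30) (by decide +kernel)

theorem fm2280 : chkM 2280 23000 15 Am2280 2759 151371091060563086513 779285033163008761527 = true :=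
  chkQ_sound (10 ^ 30) (by decide +kernel)

theorem facts2280 : Facts 2280 23000 Ap2280 Am2280 (2249 + 2759) 3947856 3947937 :=
  facts_of fp2280 fm2280 (by decide +kernel)

end Cfsg.Agent.Depth.P
end
end
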