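import Cfsg.Agent.Depth.N.Main_m3
import Cfsg.Agent.Depth.L.N47s2
import Cfsg.Agent.Depth.L.N59s4_m3
import Cfsg.Agent.Depth.P.Id_m3
import Cfsg.Agent.Depth.F.W24b_m3
import Cfsg.Agent.Prune
set_option linter.all false

section
prune_inst 0x7f00000000000000000000000000000000000000000000000000000000000000000000000000000000000000000000000000000000000000000000000000000000000000000000000000000000000000003fffffffffffffffffffffffffffbeffbdffffffff

-- part: Depth/L/N47s4
section
set_option linter.all false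

/-! Depth L: the runs of the window 4 in the class 47 (generated). -/

set_option autoImplicit false
set_option Elab.async false

namespace Cfsg.Agent.Depth.L

/-! A run is cut into stages; `V`, `W`, `X` are the numbers that pass from stage to stage. -/

private def cR (S : ℕ) (P : Par) : ℕ := lanesG S P.lo (Nat.succ P.N)
private def cOn (P : Par) : ℕ := onH (Nat.succ P.N)
private def cH1 (P : Par) : ℕ := Nat.div P.N 2
private def cOh (P : Par) : ℕ := onH (Nat.succ (cH1 P))
private def cBe (S : ℕ) (P : Par) : ℕ := Nat.land (cOh P) (cR S P)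
private def cBo (S : ℕ) (P : Par) : ℕ := Nat.land (cOh P) (Nat.shiftRight (cR S P) 28)
private def cGe (S : ℕ) (P : Par) : ℕ := gH (cOh P) (ogH (cOh P) (cH1 P) P.κ) (cBe S P) P.K (Nat.succ (cH1 P)) (P.ev 0)
private def cGo (S : ℕ) (P : Par) : ℕ := Nat.shiftLeft (gH (cOh P) (ogH (cOh P) (cH1 P) P.κ) (cBo S P) P.K (Nat.succ (cH1 P)) (P.ev 1)) 28
private def valV (S : ℕ) (P : Par) : ℕ := Nat.add (Nat.add (cGe S P) (cGo S P)) (Nat.mul 4398046527488 (cOh P))
private def lowH (on V : ℕ) : ℕ := Nat.land (Nat.mul 268435455 on) V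
private def vE (P : Par) (V : ℕ) : ℕ := Nat.sub (lowH (cOh P) V) (Nat.shiftLeft (cOh P) 14)
private def vS (P : Par) (V : ℕ) : ℕ := Nat.sub V (Nat.mul 4398046527488 (cOh P))
private def chkA (S : ℕ) (P : Par) (V : ℕ) : Bool :=
  and (gHOK (cOh P) (ogH (cOh P) (cH1 P) P.κ) (cBe S P) P.K (Nat.succ (cH1 P)) (P.ev 0))
    (and (gHOK (cOh P) (ogH (cOh P) (cH1 P) P.κ) (cBo S P) P.K (Nat.succ (cH1 P)) (P.ev 1))
      (and (Nat.beq (cGe S P) (vE P V)) (Nat.beq (Nat.add (cGe S P) (cGo S P)) (vS P V))))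
private def chkL (S : ℕ) (P : Par) (h : ℕ × ℕ × ℕ) : Bool :=
  lamQ (cOh P) (Nat.shiftRight (Nat.succ P.N) 5) (Nat.div (Nat.succ (cH1 P)) 2) h.2.1 P.b2 (cBe S P) (cBo S P)
    (lamH (cBe S P) (Nat.succ (cH1 P)) (P.ev 0)) (lamH (cBo S P) (Nat.succ (cH1 P)) (P.ev 1))
private def cP1 (P : Par) (V : ℕ) : ℕ := Nat.pow (vS P V) 2
private def cP2 (P : Par) (V : ℕ) : ℕ := Nat.pow (dist2 (vE P V) (Nat.sub (vS P V) (vE P V))) 2
private def cO1 (P : Par) (h : ℕ × ℕ × ℕ) : ℕ := Nat.mul (Nat.shiftLeft 65537 (Nat.pred h.1)) (cOn P)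
private def cS0 (P : Par) (h : ℕ × ℕ × ℕ) (V : ℕ) : ℕ := Nat.add (Nat.shiftRight (Nat.add (cP1 P V) (cP2 P V)) 1) (cO1 P h)
private def cS1 (P : Par) (h : ℕ × ℕ × ℕ) (V : ℕ) : ℕ := Nat.add (Nat.shiftRight (Nat.sub (cP1 P V) (cP2 P V)) 29) (cO1 P h)
private def cT0 (P : Par) (h : ℕ × ℕ × ℕ) (V : ℕ) : ℕ := mv (md (cOn P) 65535 h.1 (cS0 P h V)) h.1 0
private def cT1 (P : Par) (h : ℕ × ℕ × ℕ) (V : ℕ) : ℕ := mv (md (cOn P) 65535 h.1 (cS1 P h V)) h.1 28
private def valW (P : Par) (h : ℕ × ℕ × ℕ) (V : ℕ) : ℕ := Nat.add (cT0 P h V) (cT1 P h V)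
private def chkB (P : Par) (h : ℕ × ℕ × ℕ) (V W : ℕ) : Bool :=
  and (hiOK (cOn P) (Nat.add h.1 16) (cS0 P h V)) (and (hiOK (cOn P) (Nat.add h.1 16) (cS1 P h V))
    (and (Nat.beq (cT0 P h V) (lowH (cOn P) W)) (Nat.beq (cT1 P h V) (Nat.sub W (lowH (cOn P) W)))))
private def cQ1 (P : Par) (W : ℕ) : ℕ := Nat.pow (dist2 W (Nat.mul 8796093054976 (cOn P))) 2
private def cQ2 (P : Par) (W : ℕ) : ℕ :=
  Nat.pow (dist2 (Nat.add (lowH (cOn P) W) (Nat.mul 8796092989440 (cOn P))) (Nat.sub W (lowH (cOn P) W))) 2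
private def cO2 (P : Par) (h : ℕ × ℕ × ℕ) : ℕ := Nat.shiftLeft (cOn P) (Nat.add h.2.2 9)
private def cU0 (P : Par) (h : ℕ × ℕ × ℕ) (W : ℕ) : ℕ := Nat.add (Nat.add (cQ1 P W) (cQ2 P W)) (cO2 P h)
private def cU2 (P : Par) (h : ℕ × ℕ × ℕ) (W : ℕ) : ℕ := Nat.add (Nat.shiftRight (dist2 (cQ1 P W) (cQ2 P W)) 28) (cO2 P h)
private def cUp (P : Par) (h : ℕ × ℕ × ℕ) (U : ℕ) : ℕ := Nat.add (Nat.shiftRight U (Nat.mul 56 (Nat.succ P.N))) (cO2 P h)
private def cX (P : Par) (h : ℕ × ℕ × ℕ) (U b : ℕ) : ℕ :=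
  Nat.add (mv (md (cOn P) 1023 h.2.2 U) h.2.2 b) (mv (md (cOn P) 1023 h.2.2 (cUp P h U)) h.2.2 (Nat.add b 14))
private def valX (P : Par) (h : ℕ × ℕ × ℕ) (W : ℕ) : ℕ := Nat.add (cX P h (cU0 P h W) 0) (cX P h (cU2 P h W) 28)
private def chkC (P : Par) (h : ℕ × ℕ × ℕ) (U b Y : ℕ) : Bool :=
  and (hiOK (cOn P) (Nat.add h.2.2 10) U) (and (hiOK (cOn P) (Nat.add h.2.2 10) (cUp P h U)) (Nat.beq (cX P h U b) Y))
private def chkC0 (P : Par) (h : ℕ × ℕ × ℕ) (W X : ℕ) : Bool := chkC P h (cU0 P h W) 0 (lowH (cOn P) X)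
private def chkC1 (P : Par) (h : ℕ × ℕ × ℕ) (W X : ℕ) : Bool := chkC P h (cU2 P h W) 28 (Nat.sub X (lowH (cOn P) X))
private def fD (w : ℕ) : ℕ → ℕ := blk (fun X => ts (onH w) (sqA (Nat.mul 4398314962945 (onH w)) (ab (Nat.mul 4398314962945 (onH w)) X))) (Nat.mul 56 w) 4
private def valD0 (P : Par) (X : ℕ) : ℕ := (fun w => fD w (Nat.land (Nat.pred (Nat.shiftLeft 1 (Nat.shiftLeft (Nat.mul 56 w) 4))) X)) (Nat.shiftRight (Nat.succ P.N) 5)
private def valD1 (P : Par) (X : ℕ) : ℕ := (fun w => fD w (Nat.shiftRight X (Nat.shiftLeft (Nat.mul 56 w) 4))) (Nat.shiftRight (Nat.succ P.N) 5)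

private def chkD (P : Par) (h : ℕ × ℕ × ℕ) (X d : ℕ) : Bool :=
  Nat.ble (Nat.shiftLeft (Nat.add (Nat.add d (valD1 P X)) (Nat.mul 4 (Nat.succ P.N))) (Nat.add (Nat.add h.2.2 h.2.2) 2)) P.bt

private theorem lowH_add (on V : ℕ) : Nat.add (lowH on V) (Nat.sub V (lowH on V)) = V :=
  Nat.add_sub_cancel' (show Nat.mul 268435455 on &&& V ≤ V from Nat.and_le_right)

private theorem runQ_cut {S V W X d : ℕ} {P : Par} {h : ℕ × ℕ × ℕ} (hN : Nat.beq (Nat.succ P.N) (Nat.add (Nat.succ (cH1 P)) (Nat.succ (cH1 P))) = true)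
    (a : chkA S P V = true) (l : chkL S P h = true) (b : chkB P h V W = true) (c0 : chkC0 P h W X = true)
    (c1 : chkC1 P h W X = true) (e0 : Nat.beq (valD0 P X) d = true) (e1 : chkD P h X d = true) : runQ S P h = true := by
  have an : ∀ {x y : Bool}, x = true → y = true → and x y = true := fun hx hy => Bool.and_eq_true_iff.2 ⟨hx, hy⟩
  have ae : ∀ {x y : Bool}, and x y = true → x = true ∧ y = true := fun hx => Bool.and_eq_true_iff.1 hx
  have oh : Nat.shiftRight (onH (Nat.succ P.N)) (Nat.mul 56 (Nat.succ (Nat.div P.N 2))) = cOh P := by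
    rw [Nat.eq_of_beq_eq_true hN, onH_eq]
    exact (ones_shr _ _).trans (onH_eq _).symm
  obtain ⟨a0, a⟩ := ae a
  obtain ⟨a1, a⟩ := ae a
  obtain ⟨a2, a3⟩ := ae a
  obtain ⟨b0, b⟩ := ae b
  obtain ⟨b1, b⟩ := ae b
  obtain ⟨b2, b3⟩ := ae b
  obtain ⟨c2, c0⟩ := ae c0
  obtain ⟨c3, c0⟩ := ae c0
  obtain ⟨c4, c1⟩ := ae c1
  obtain ⟨c5, c1⟩ := ae c1
  replace a2 := Nat.eq_of_beq_eq_true a2
  replace a3 := Nat.eq_of_beq_eq_true a3
  replace b2 := Nat.eq_of_beq_eq_true b2
  replace b3 := Nat.eq_of_beq_eq_true b3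
  replace c0 := Nat.eq_of_beq_eq_true c0
  replace c1 := Nat.eq_of_beq_eq_true c1
  replace e0 := Nat.eq_of_beq_eq_true e0
  have a4 : cGo S P = Nat.sub (vS P V) (vE P V) := by
    rw [← a3, ← a2]
    exact (Nat.add_sub_cancel_left _ _).symm
  have x : pk (cOn P) 1023 h.2.2 (cU0 P h W) (cUp P h (cU0 P h W)) (cU2 P h W) (cUp P h (cU2 P h W)) = X :=
    (congrArg₂ Nat.add c0 c1).trans (lowH_add _ _)
  have y : lastA (cOn P) (Nat.shiftRight (Nat.succ P.N) 5) (Nat.succ P.N) h.2.2 (cU0 P h W) (cUp P h (cU0 P h W)) (cU2 P h W)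
      (cUp P h (cU2 P h W)) = Nat.shiftLeft (Nat.add (Nat.add d (valD1 P X)) (Nat.mul 4 (Nat.succ P.N))) (Nat.add (Nat.add h.2.2 h.2.2) 2) := by
    delta lastA
    rw [x, ← e0]
    rfl
  have q2 : sq2 (cOn P) (Nat.shiftRight (Nat.succ P.N) 5) (Nat.succ P.N) P.bt h.2.2 (cQ1 P W) (cQ2 P W) (cO2 P h) = true :=
    an c2 (an c3 (an c4 (an c5 ((congrArg (fun z => Nat.ble z P.bt) y).trans e1))))
  have q1 : sq1b (cOn P) (Nat.shiftRight (Nat.succ P.N) 5) (Nat.succ P.N) P.bt h (cS0 P h V) (cS1 P h V) = true := by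
    refine an b0 (an b1 ?_)
    change sq2 _ _ _ _ _ (Nat.pow (dist2 (Nat.add (cT0 P h V) (cT1 P h V)) _) 2) (Nat.pow (dist2 (Nat.add (cT0 P h V) _) (cT1 P h V)) 2) _ = true
    rw [b2, b3, lowH_add]
    exact q2
  have q0 : sq1 (cOn P) (Nat.shiftRight (Nat.succ P.N) 5) (Nat.succ P.N) P.bt h (cGe S P) (cGo S P) = true := by
    delta sq1
    rw [a3, a4, a2]
    exact q1
  delta runQ
  beta_reduce
  rw [oh]
  exact an a0 (an a1 (an l q0))


private def n47s4aP : Par := (pA 47 4 24061442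
    ⟨0, 14247324, 49992574259801, 954847, 8192, 46501783666689, 0, 2247350480343717091376889856, 67, 1, 297⟩)

set_option maxRecDepth 100000 in
private noncomputable def n47s4aV : ℕ := beta% (fun (x : ℕ) (_ : valV S47 n47s4aP = x) => x) _ (by conv_lhs => whnf)

set_option maxRecDepth 100000 in
private noncomputable def n47s4aW : ℕ := beta% (fun (x : ℕ) (_ : valW n47s4aP ⟨24, 43, 30⟩ n47s4aV = x) => x) _ (by conv_lhs => whnf)

set_option maxRecDepth 100000 in
private noncomputable def n47s4aX : ℕ := beta% (fun (x : ℕ) (_ : valX n47s4aP ⟨24, 43, 30⟩ n47s4aW = x) => x) _ (by conv_lhs => whnf)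

set_option maxRecDepth 100000 in
private noncomputable def n47s4aD : ℕ := beta% (fun (x : ℕ) (_ : valD0 n47s4aP n47s4aX = x) => x) _ (by conv_lhs => whnf)

private theorem n47s4a1 : chkA S47 n47s4aP n47s4aV = true := by
  decide +kernel

private theorem n47s4a2 : chkL S47 n47s4aP ⟨24, 43, 30⟩ = true := by
  decide +kernel

private theorem n47s4a3 : chkB n47s4aP ⟨24, 43, 30⟩ n47s4aV n47s4aW = true := by
  decide +kernel

private theorem n47s4a4 : chkC0 n47s4aP ⟨24, 43, 30⟩ n47s4aW n47s4aX = true := by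
  decide +kernel

private theorem n47s4a5 : chkC1 n47s4aP ⟨24, 43, 30⟩ n47s4aW n47s4aX = true := by
  decide +kernel

private theorem n47s4a6 : Nat.beq (valD0 n47s4aP n47s4aX) n47s4aD = true := by
  decide +kernel

private theorem n47s4a7 : chkD n47s4aP ⟨24, 43, 30⟩ n47s4aX n47s4aD = true := by
  decide +kernel

theorem n47s4a : runQ S47 (pA 47 4 24061442
    ⟨0, 14247324, 49992574259801, 954847, 8192, 46501783666689, 0, 2247350480343717091376889856, 67, 1, 297⟩) ⟨24, 43, 30⟩ = true :=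
  runQ_cut (P := n47s4aP) (by decide +kernel) n47s4a1 n47s4a2 n47s4a3 n47s4a4 n47s4a5 n47s4a6 n47s4a7

private def n47s4bP : Par := (pB 47 4 24061442
    ⟨55799704555225, 665650, 56286004622572, 499313, 8192, 83029781512193, 0, 23856004876033216298502728974, 121, 1, 397⟩)

set_option maxRecDepth 100000 in
private noncomputable def n47s4bV : ℕ := beta% (fun (x : ℕ) (_ : valV S47 n47s4bP = x) => x) _ (by conv_lhs => whnf)

set_option maxRecDepth 100000 in
private noncomputable def n47s4bW : ℕ := beta% (fun (x : ℕ) (_ : valW n47s4bP ⟨24, 43, 31⟩ n47s4bV = x) => x) _ (by conv_lhs => whnf)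

set_option maxRecDepth 100000 in
private noncomputable def n47s4bX : ℕ := beta% (fun (x : ℕ) (_ : valX n47s4bP ⟨24, 43, 31⟩ n47s4bW = x) => x) _ (by conv_lhs => whnf)

set_option maxRecDepth 100000 in
private noncomputable def n47s4bD : ℕ := beta% (fun (x : ℕ) (_ : valD0 n47s4bP n47s4bX = x) => x) _ (by conv_lhs => whnf)

private theorem n47s4b1 : chkA S47 n47s4bP n47s4bV = true := by
  decide +kernel

private theorem n47s4b2 : chkL S47 n47s4bP ⟨24, 43, 31⟩ = true := by
  decide +kernel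

private theorem n47s4b3 : chkB n47s4bP ⟨24, 43, 31⟩ n47s4bV n47s4bW = true := by
  decide +kernel

private theorem n47s4b4 : chkC0 n47s4bP ⟨24, 43, 31⟩ n47s4bW n47s4bX = true := by
  decide +kernel

private theorem n47s4b5 : chkC1 n47s4bP ⟨24, 43, 31⟩ n47s4bW n47s4bX = true := by
  decide +kernel

private theorem n47s4b6 : Nat.beq (valD0 n47s4bP n47s4bX) n47s4bD = true := by
  decide +kernel

private theorem n47s4b7 : chkD n47s4bP ⟨24, 43, 31⟩ n47s4bX n47s4bD = true := by
  decide +kernel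

theorem n47s4b : runQ S47 (pB 47 4 24061442
    ⟨55799704555225, 665650, 56286004622572, 499313, 8192, 83029781512193, 0, 23856004876033216298502728974, 121, 1, 397⟩) ⟨24, 43, 31⟩ = true :=
  runQ_cut (P := n47s4bP) (by decide +kernel) n47s4b1 n47s4b2 n47s4b3 n47s4b4 n47s4b5 n47s4b6 n47s4b7

private def n47s4cP : Par := (pC 47 4 24061442
    ⟨59311928118098, 408352, 100722138672453, -16496435, 8192, 51822012399617, 0, 2842908519837161244998403883, 71, 1, 306⟩)

set_option maxRecDepth 100000 in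
private noncomputable def n47s4cV : ℕ := beta% (fun (x : ℕ) (_ : valV S47 n47s4cP = x) => x) _ (by conv_lhs => whnf)

set_option maxRecDepth 100000 in
private noncomputable def n47s4cW : ℕ := beta% (fun (x : ℕ) (_ : valW n47s4cP ⟨24, 43, 30⟩ n47s4cV = x) => x) _ (by conv_lhs => whnf)

set_option maxRecDepth 100000 in
private noncomputable def n47s4cX : ℕ := beta% (fun (x : ℕ) (_ : valX n47s4cP ⟨24, 43, 30⟩ n47s4cW = x) => x) _ (by conv_lhs => whnf)

set_option maxRecDepth 100000 in
private noncomputable def n47s4cD : ℕ := beta% (fun (x : ℕ) (_ : valD0 n47s4cP n47s4cX = x) => x) _ (by conv_lhs => whnf)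

private theorem n47s4c1 : chkA S47 n47s4cP n47s4cV = true := by
  decide +kernel

private theorem n47s4c2 : chkL S47 n47s4cP ⟨24, 43, 30⟩ = true := by
  decide +kernel

private theorem n47s4c3 : chkB n47s4cP ⟨24, 43, 30⟩ n47s4cV n47s4cW = true := by
  decide +kernel

private theorem n47s4c4 : chkC0 n47s4cP ⟨24, 43, 30⟩ n47s4cW n47s4cX = true := by
  decide +kernel

private theorem n47s4c5 : chkC1 n47s4cP ⟨24, 43, 30⟩ n47s4cW n47s4cX = true := by
  decide +kernel

private theorem n47s4c6 : Nat.beq (valD0 n47s4cP n47s4cX) n47s4cD = true := by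
  decide +kernel

private theorem n47s4c7 : chkD n47s4cP ⟨24, 43, 30⟩ n47s4cX n47s4cD = true := by
  decide +kernel

theorem n47s4c : runQ S47 (pC 47 4 24061442
    ⟨59311928118098, 408352, 100722138672453, -16496435, 8192, 51822012399617, 0, 2842908519837161244998403883, 71, 1, 306⟩) ⟨24, 43, 30⟩ = true :=
  runQ_cut (P := n47s4cP) (by decide +kernel) n47s4c1 n47s4c2 n47s4c3 n47s4c4 n47s4c5 n47s4c6 n47s4c7

theorem n47s4 : ∃ lam : ℕ → ℝ, LFacts 47 4 0.001 (n8T 4 / 10 ^ 22) (n2T 4 / 10 ^ 9) lam :=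
  winQ boxTab boxTabW (sf_of s47 (by decide +kernel)) n47s4a n47s4b n47s4c (by decide +kernel)
    (by delta winN; norm_num [u8, c8, Tw, Yw, nw, kk, n8T, n2T])

end Cfsg.Agent.Depth.L
end

-- part: Depth/P/Fin
section
set_option linter.all false
open scoped Cfsg.Agent.FastGrp

/-!
# Depth (S5768): primes in progressions from the tables
-/

set_option autoImplicit false
set_option Elab.async false

namespace Cfsg.Agent.Depth.P

open Finset Real

theorem gb_of {q : ℕ} (hq : 0 < q) (h : ((60 * q).totient : ℝ) / (60 * q : ℕ) * ff q = 4 / 15) (hf : 0 < ff q) :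
    GB (60 * q) := by
  intro R hR
  have h1 := S.gh1 q R hq
  obtain ⟨-, h2, h3⟩ := S.gh2 R hR
  have key : ∀ z : ℝ, 4 / 15 * z ≤ Gs 60 R → ((60 * q).totient : ℝ) / (60 * q : ℕ) * z ≤ Gs (60 * q) R := by
    intro z hz
    refine le_trans ?_ h1
    rw [le_div_iff₀ hf, mul_right_comm, h]
    exact hz
  exact ⟨key _ h2, fun h => key _ (h3 h)⟩

theorem ff_two_mul {p : ℕ} (hp : p.Prime) (h : 5 < p) : ff (2 * p) = p / (p - 1) := by
  rw [ff, Nat.primeFactors_mul (by norm_num) hp.ne_zero, Nat.Prime.primeFactors Nat.prime_two, hp.primeFactors,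
    filter_union, filter_singleton, filter_singleton, if_neg (by norm_num), if_pos h, empty_union, prod_singleton]

theorem pi_mono {W : ℕ} {x0 x1 lo up : ℝ} (h : PI W x0 lo up) (h1 : x0 ≤ x1) : PI W x1 lo up :=
  fun c x hc hx => h c x hc (h1.trans hx)

theorem exp_ge (n : ℕ) (y : ℝ) (hy : 0 ≤ y) :
    2.7182818283 ^ n * (1 + y + y ^ 2 / 2 + y ^ 3 / 6 + y ^ 4 / 24 + y ^ 5 / 120) ≤ Real.exp (n + y) := by
  rw [exp_add, ← mul_one (n : ℝ), exp_nat_mul]
  have h := Real.sum_le_exp_of_nonneg hy 6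
  simp only [sum_range_succ, range_zero, sum_empty, Nat.factorial] at h
  norm_num at h
  exact mul_le_mul (pow_le_pow_left₀ (by norm_num) Real.exp_one_gt_d9.le _) (by linarith) (by positivity)
    (by positivity)

theorem x0_le : ((158000000000000 : ℕ) : ℝ) ≤ Real.exp 32.7 := by
  have := exp_ge 32 0.7 (by norm_num)
  rw [show ((32 : ℕ) : ℝ) + 0.7 = 32.7 by norm_num] at this
  exact le_trans (by norm_num) this

theorem x1_le : ((2860000000000000000 : ℕ) : ℝ) ≤ Real.exp 42.5 := by
  have := exp_ge 42 0.5 (by norm_num)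
  rw [show ((42 : ℕ) : ℝ) + 0.5 = 42.5 by norm_num] at this
  exact le_trans (by norm_num) this

theorem x2_le : ((9360000000000000000000000 : ℕ) : ℝ) ≤ Real.exp 57.5 := by
  have := exp_ge 57 0.5 (by norm_num)
  rw [show ((57 : ℕ) : ℝ) + 0.5 = 57.5 by norm_num] at this
  exact le_trans (by norm_num) this

theorem tot60 : Nat.totient 60 = 16 := by decide +kernel

theorem gb60 : GB 60 := by
  have h : ff 1 = 1 := by simp [ff]
  exact gb_of (q := 1) (by norm_num) (by rw [h, show 60 * 1 = 60 from rfl, tot60]; norm_num) (by rw [h]; norm_num)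

theorem pi_60_0 (h : Tabs) : PI 60 (Real.exp 32.7) 0.9433 1.07 := by
  have := pi_mono (pi_of (xl := 158000000000000) (lo := 9433) (up := 10700) (s0 := 166) (t := bI60.tail) gb60 (by norm_num) tot60 (by norm_num)
    facts60 (by norm_num) h.2.1 (by decide +kernel)) x0_le
  convert this using 1 <;> norm_num

theorem pi_60_1 (h : Tabs) : PI 60 (Real.exp 42.5) 0.9494 1.07 := by
  have := pi_mono (pi_of (xl := 2860000000000000000) (lo := 9494) (up := 10700) (s0 := 166) (t := bI60.tail) gb60 (by norm_num) tot60 (by norm_num)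
    facts60 (by norm_num) h.2.1 (by decide +kernel)) x1_le
  convert this using 1 <;> norm_num

theorem pi_60_2 (h : Tabs) : PI 60 (Real.exp 57.5) 0.9523 1.07 := by
  have := pi_mono (pi_of (xl := 9360000000000000000000000) (lo := 9523) (up := 10700) (s0 := 166) (t := bI60.tail) gb60 (by norm_num) tot60 (by norm_num)
    facts60 (by norm_num) h.2.1 (by decide +kernel)) x2_le
  convert this using 1 <;> norm_num

theorem pp1 (h : Tabs) : PP 60 (15000000000000 : ℕ) (((9720 : ℕ) : ℝ) / 10 ^ 4) (((10320 : ℕ) : ℝ) / 10 ^ 4) :=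
  pp_of (s0 := 333) (t := bP60.tail) gb60 (by norm_num) tot60 (by norm_num) facts60 (by norm_num) h.1 (by decide +kernel)

theorem pp60 (h : Tabs) : PP 60 (10 ^ 21) 0.982 1.019 := by
  have := pp_of2 (xl := 10 ^ 21) (lo := 9820) (up := 10190) (s0 := 333) (t := bP60.tail) gb60 (by norm_num) tot60
    (by norm_num) facts60 (by norm_num) h.1 (pp1 h) (by decide +kernel)
  convert this using 1 <;> norm_num

theorem tot120 : Nat.totient 120 = 32 := by decide +kernel

theorem gb120 : GB 120 := by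
  have h : ff 2 = 1 := by rw [ff, Nat.Prime.primeFactors Nat.prime_two, filter_singleton, if_neg (by norm_num), prod_empty]
  exact gb_of (q := 2) (by norm_num) (by rw [h, show 60 * 2 = 120 from rfl, tot120]; norm_num) (by rw [h]; norm_num)

theorem pi_120_0 (h : Tabs) : PI 120 (Real.exp 32.7) 0.8841 1.1232 := by
  have := pi_mono (pi_of (xl := 158000000000000) (lo := 8841) (up := 11232) (s0 := 83) (t := bI120.tail) gb120 (by norm_num) tot120 (by norm_num)
    facts120 (by norm_num) h.2.2.1 (by decide +kernel)) x0_le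
  convert this using 1 <;> norm_num

theorem pi_120_1 (h : Tabs) : PI 120 (Real.exp 42.5) 0.8992 1.1071 := by
  have := pi_mono (pi_of (xl := 2860000000000000000) (lo := 8992) (up := 11071) (s0 := 83) (t := bI120.tail) gb120 (by norm_num) tot120 (by norm_num)
    facts120 (by norm_num) h.2.2.1 (by decide +kernel)) x1_le
  convert this using 1 <;> norm_num

theorem pi_120_2 (h : Tabs) : PI 120 (Real.exp 57.5) 0.9058 1.0999 := by
  have := pi_mono (pi_of (xl := 9360000000000000000000000) (lo := 9058) (up := 10999) (s0 := 83) (t := bI120.tail) gb120 (by norm_num) tot120 (by norm_num)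
    facts120 (by norm_num) h.2.2.1 (by decide +kernel)) x2_le
  convert this using 1 <;> norm_num

theorem tot840 : Nat.totient 840 = 192 := by decide +kernel

theorem gb840 : GB 840 := by
  have h : ff 14 = 7 / 6 := (ff_two_mul (p := 7) (by norm_num) (by norm_num)).trans (by norm_num)
  exact gb_of (q := 14) (by norm_num) (by rw [h, show 60 * 14 = 840 from rfl, tot840]; norm_num) (by rw [h]; norm_num)

theorem pi_840_0 (h : Tabs) : PI 840 (Real.exp 32.7) 0.7308 1.2846 := by
  have := pi_mono (pi_of (xl := 158000000000000) (lo := 7308) (up := 12846) (s0 := 17) (t := bI840.tail) gb840 (by norm_num) tot840 (by norm_num)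
    facts840 (by norm_num) h.2.2.2.1 (by decide +kernel)) x0_le
  convert this using 1 <;> norm_num

theorem pi_840_1 (h : Tabs) : PI 840 (Real.exp 42.5) 0.7743 1.2377 := by
  have := pi_mono (pi_of (xl := 2860000000000000000) (lo := 7743) (up := 12377) (s0 := 17) (t := bI840.tail) gb840 (by norm_num) tot840 (by norm_num)
    facts840 (by norm_num) h.2.2.2.1 (by decide +kernel)) x1_le
  convert this using 1 <;> norm_num

theorem pi_840_2 (h : Tabs) : PI 840 (Real.exp 57.5) 0.7927 1.2177 := by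
  have := pi_mono (pi_of (xl := 9360000000000000000000000) (lo := 7927) (up := 12177) (s0 := 17) (t := bI840.tail) gb840 (by norm_num) tot840 (by norm_num)
    facts840 (by norm_num) h.2.2.2.1 (by decide +kernel)) x2_le
  convert this using 1 <;> norm_num

theorem tot1320 : Nat.totient 1320 = 320 := by decide +kernel

theorem gb1320 : GB 1320 := by
  have h : ff 22 = 11 / 10 := (ff_two_mul (p := 11) (by norm_num) (by norm_num)).trans (by norm_num)
  exact gb_of (q := 22) (by norm_num) (by rw [h, show 60 * 22 = 1320 from rfl, tot1320]; norm_num) (by rw [h]; norm_num)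

theorem pi_1320_0 (h : Tabs) : PI 1320 (Real.exp 32.7) 0.5337 1.4784 := by
  have := pi_mono (pi_of (xl := 158000000000000) (lo := 5337) (up := 14784) (s0 := 7) (t := bI1320.tail) gb1320 (by norm_num) tot1320 (by norm_num)
    facts1320 (by norm_num) h.2.2.2.2.1 (by decide +kernel)) x0_le
  convert this using 1 <;> norm_num

theorem pi_1320_1 (h : Tabs) : PI 1320 (Real.exp 42.5) 0.6111 1.3979 := by
  have := pi_mono (pi_of (xl := 2860000000000000000) (lo := 6111) (up := 13979) (s0 := 7) (t := bI1320.tail) gb1320 (by norm_num) tot1320 (by norm_num)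
    facts1320 (by norm_num) h.2.2.2.2.1 (by decide +kernel)) x1_le
  convert this using 1 <;> norm_num

theorem pi_1320_2 (h : Tabs) : PI 1320 (Real.exp 57.5) 0.6435 1.3641 := by
  have := pi_mono (pi_of (xl := 9360000000000000000000000) (lo := 6435) (up := 13641) (s0 := 7) (t := bI1320.tail) gb1320 (by norm_num) tot1320 (by norm_num)
    facts1320 (by norm_num) h.2.2.2.2.1 (by decide +kernel)) x2_le
  convert this using 1 <;> norm_num

theorem tot1560 : Nat.totient 1560 = 384 := by decide +kernel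

theorem gb1560 : GB 1560 := by
  have h : ff 26 = 13 / 12 := (ff_two_mul (p := 13) (by norm_num) (by norm_num)).trans (by norm_num)
  exact gb_of (q := 26) (by norm_num) (by rw [h, show 60 * 26 = 1560 from rfl, tot1560]; norm_num) (by rw [h]; norm_num)

theorem pi_1560_0 (h : Tabs) : PI 1560 (Real.exp 32.7) 0.4686 1.5441 := by
  have := pi_mono (pi_of (xl := 158000000000000) (lo := 4686) (up := 15441) (s0 := 6) (t := bI1560.tail) gb1560 (by norm_num) tot1560 (by norm_num)
    facts1560 (by norm_num) h.2.2.2.2.2.1 (by decide +kernel)) x0_le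
  convert this using 1 <;> norm_num

theorem pi_1560_1 (h : Tabs) : PI 1560 (Real.exp 42.5) 0.5574 1.4520 := by
  have := pi_mono (pi_of (xl := 2860000000000000000) (lo := 5574) (up := 14520) (s0 := 6) (t := bI1560.tail) gb1560 (by norm_num) tot1560 (by norm_num)
    facts1560 (by norm_num) h.2.2.2.2.2.1 (by decide +kernel)) x1_le
  convert this using 1 <;> norm_num

theorem pi_1560_2 (h : Tabs) : PI 1560 (Real.exp 57.5) 0.5944 1.4136 := by
  have := pi_mono (pi_of (xl := 9360000000000000000000000) (lo := 5944) (up := 14136) (s0 := 6) (t := bI1560.tail) gb1560 (by norm_num) tot1560 (by norm_num)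
    facts1560 (by norm_num) h.2.2.2.2.2.1 (by decide +kernel)) x2_le
  convert this using 1 <;> norm_num

theorem tot2040 : Nat.totient 2040 = 512 := by decide +kernel

theorem gb2040 : GB 2040 := by
  have h : ff 34 = 17 / 16 := (ff_two_mul (p := 17) (by norm_num) (by norm_num)).trans (by norm_num)
  exact gb_of (q := 34) (by norm_num) (by rw [h, show 60 * 34 = 2040 from rfl, tot2040]; norm_num) (by rw [h]; norm_num)

theorem pi_2040_0 (h : Tabs) : PI 2040 (Real.exp 32.7) 0.3467 1.6689 := by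
  have := pi_mono (pi_of (xl := 158000000000000) (lo := 3467) (up := 16689) (s0 := 4) (t := bI2040.tail) gb2040 (by norm_num) tot2040 (by norm_num)
    facts2040 (by norm_num) h.2.2.2.2.2.2.1 (by decide +kernel)) x0_le
  convert this using 1 <;> norm_num

theorem pi_2040_1 (h : Tabs) : PI 2040 (Real.exp 42.5) 0.4565 1.5554 := by
  have := pi_mono (pi_of (xl := 2860000000000000000) (lo := 4565) (up := 15554) (s0 := 4) (t := bI2040.tail) gb2040 (by norm_num) tot2040 (by norm_num)
    facts2040 (by norm_num) h.2.2.2.2.2.2.1 (by decide +kernel)) x1_le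
  convert this using 1 <;> norm_num

theorem pi_2040_2 (h : Tabs) : PI 2040 (Real.exp 57.5) 0.5021 1.5081 := by
  have := pi_mono (pi_of (xl := 9360000000000000000000000) (lo := 5021) (up := 15081) (s0 := 4) (t := bI2040.tail) gb2040 (by norm_num) tot2040 (by norm_num)
    facts2040 (by norm_num) h.2.2.2.2.2.2.1 (by decide +kernel)) x2_le
  convert this using 1 <;> norm_num

theorem tot2280 : Nat.totient 2280 = 576 := by decide +kernel

theorem gb2280 : GB 2280 := by
  have h : ff 38 = 19 / 18 := (ff_two_mul (p := 19) (by norm_num) (by norm_num)).trans (by norm_num)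
  exact gb_of (q := 38) (by norm_num) (by rw [h, show 60 * 38 = 2280 from rfl, tot2280]; norm_num) (by rw [h]; norm_num)

theorem pi_2280_0 (h : Tabs) : PI 2280 (Real.exp 32.7) 0.2874 1.7262 := by
  have := pi_mono (pi_of (xl := 158000000000000) (lo := 2874) (up := 17262) (s0 := 4) (t := bI2280.tail) gb2280 (by norm_num) tot2280 (by norm_num)
    facts2280 (by norm_num) h.2.2.2.2.2.2.2 (by decide +kernel)) x0_le
  convert this using 1 <;> norm_num

theorem pi_2280_1 (h : Tabs) : PI 2280 (Real.exp 42.5) 0.4073 1.6031 := by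
  have := pi_mono (pi_of (xl := 2860000000000000000) (lo := 4073) (up := 16031) (s0 := 4) (t := bI2280.tail) gb2280 (by norm_num) tot2280 (by norm_num)
    facts2280 (by norm_num) h.2.2.2.2.2.2.2 (by decide +kernel)) x1_le
  convert this using 1 <;> norm_num

theorem pi_2280_2 (h : Tabs) : PI 2280 (Real.exp 57.5) 0.4570 1.5519 := by
  have := pi_mono (pi_of (xl := 9360000000000000000000000) (lo := 4570) (up := 15519) (s0 := 4) (t := bI2280.tail) gb2280 (by norm_num) tot2280 (by norm_num)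
    facts2280 (by norm_num) h.2.2.2.2.2.2.2 (by decide +kernel)) x2_le
  convert this using 1 <;> norm_num

end Cfsg.Agent.Depth.P

private theorem dce_3cf2d6289ddc : _root_.True := by
  try have : _root_.True := by simp only [_root_.Cfsg.Agent.Depth.ff.eq_1]
  exact _root_.True.intro
end
end
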